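import Cfsg.Agent.H11.SimDSpec

/-! Tower SIM, chapter D, slot D5. -/

set_option autoImplicit false

namespace H66.SimD5

open Subgroup Cfsg H98 Matrix H0.Sim H11.SimD

theorem jobD_D5 : H11.SimD.JobD5 := by
  intro n F _ _ u q Θ H Q E g W₁ W₂ c hI h12 st
  have inv : ∀ h ∈ H, Inv (mat (cj g E)) (mg h (mg g W₁)) := by
    rintro h hh _ ⟨b, hb, rfl⟩ - x hx
    have h1 := St.sb_IS (st_of_norm (c.cf.nb1 h⁻¹ (H.inv_mem hh) (conj_mem_cj hb)))
    rw [hI] at h1
    have h2 := h1 _ (mem_mg'.1 hx)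
    rw [mulVec_mulVec, ← Units.val_mul, inv_inv, mul_inv_cancel_right] at h2
    rw [mem_mg', mulVec_mulVec, ← Units.val_mul]
    exact h2
  have le2 : ∀ h ∈ H, mg h (mg g W₁) ≤ mg g W₂ := fun h hh => by
    rcases st _ (inv h hh) with k | k
    · exact k
    · rw [mg_eq_of_ge k]
      exact mg_mono g c.bs.le
  have leW : ∀ h ∈ H, mg h (mg g W₁) ≤ W₂ := fun h hh =>
    (mg_mono h h12).trans (sb_iff.1 (c.sb2 hh))
  have hY : ∀ h ∈ H, Sb h (⨆ k : H, mg (k : GL (Fin n) F) (mg g W₁)) := fun h hh => by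
    rw [sb_iff, mg, Submodule.map_iSup]
    refine iSup_le fun k => ?_
    refine le_trans (le_of_eq ?_) (le_iSup (fun k : H => mg (k : GL (Fin n) F) (mg g W₁)) (⟨h, hh⟩ * k))
    exact mg_mg h k _
  have h0 : mg g W₁ ≤ ⨆ k : H, mg (k : GL (Fin n) F) (mg g W₁) :=
    le_trans (mg_one _).ge (le_iSup (fun k : H => mg (k : GL (Fin n) F) (mg g W₁)) 1)
  rcases c.irr _ hY with e | e | e | e
  · exfalso
    rw [e, le_bot_iff] at h0
    refine c.bs.n1 (Submodule.finrank_eq_zero.1 ?_)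
    rw [← finrank_mg g, h0, finrank_bot]
  · exact Or.inl (mg_eq_of_le (h0.trans e.le))
  · exact Or.inr (mg_eq_of_ge (e.ge.trans (iSup_le fun k => le2 k k.2)))
  · exact absurd (top_le_iff.1 (e.ge.trans (iSup_le fun k => leW k k.2))) c.bs.n2

end H66.SimD5
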