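import Cfsg.Agent.H12.CLSpec

/-! CL3b: `JobMK` (a piece gives a projective representation). -/

set_option autoImplicit false

namespace H66.CLb

open H12.CL H91.CL Subgroup Module
open scoped commutatorElement

theorem exists_quot {E : Type} [Group E] (Z : Subgroup E) [Z.Normal] {r : ℕ} [NeZero r]
    (h1 : ∀ a b : E, (a * b)⁻¹ * (b * a) ∈ Z) (h2 : ∀ a : E, a ^ r ∈ Z) :
    ∃ (W : Type) (_ : AddCommGroup W) (_ : Module (ZMod r) W) (π : E → W),
      (∀ x y, π (x * y) = π x + π y) ∧ Function.Surjective π ∧ ∀ x y, π x = π y ↔ x⁻¹ * y ∈ Z := by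
  let _ : CommGroup (E ⧸ Z) :=
    { (inferInstance : Group (E ⧸ Z)) with
      mul_comm := fun a b => by
        obtain ⟨a, rfl⟩ := QuotientGroup.mk_surjective a
        obtain ⟨b, rfl⟩ := QuotientGroup.mk_surjective b
        exact QuotientGroup.eq.2 (h1 a b) }
  refine ⟨Additive (E ⧸ Z), inferInstance, AddCommGroup.zmodModule fun a => ?_,
    fun x => Additive.ofMul (x : E ⧸ Z), fun _ _ => rfl, QuotientGroup.mk_surjective,
    fun _ _ => QuotientGroup.eq⟩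
  obtain ⟨a, rfl⟩ := QuotientGroup.mk_surjective a
  exact (QuotientGroup.eq_one_iff (a ^ r)).2 (h2 a)

theorem jobMK : JobMK := by
  classical
  intro K V Γ _ _ _ _ _ _ _ _ _ _ sc G H s E P
  obtain ⟨r, hr, hE⟩ := P.exp
  have : Fact r.Prime := ⟨hr⟩
  have cz : ∀ (x : E) c, (x : Γ) * sc c = sc c * x := fun x => s.comm_sc (P.lin x x.2)
  have : (sc.range.subgroupOf E).Normal := ⟨fun n ⟨c, hc⟩ g => ⟨c, by
    change _ = (g : Γ) * E.subtype n * (g : Γ)⁻¹
    rw [← hc, cz, mul_inv_cancel_right]⟩⟩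
  obtain ⟨W, _, _, π, p1, p2, p3⟩ := exists_quot (sc.range.subgroupOf E) (r := r) (fun a b => by
    have := P.comm _ b⁻¹.2 _ a⁻¹.2
    rw [commutatorElement_def] at this
    simpa [mem_subgroupOf, mul_assoc] using this) fun a => hE a a.2
  have rel : ∀ {x y : E}, π x = π y ↔ ∃ c, (x : Γ) = sc c * y := fun {x y} => by
    rw [eq_comm, p3]
    refine exists_congr fun c => ?_
    change _ = (y : Γ)⁻¹ * x ↔ _
    rw [eq_inv_mul_iff_mul_eq, cz, eq_comm]
  have p0 : π 1 = 0 := by simpa using p1 1 1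
  have p4 : ∀ x, π x = 0 ↔ (x : Γ) ∈ sc.range := fun x => by
    rw [← p0, rel]; simp [eq_comm]
  choose w hw using fun x y : E => P.comm x x.2 y y.2
  have w0 : ∀ x y : E, (x : Γ) * y = sc (w x y) * (y * x) := fun x y => by
    rw [hw, commutatorElement_def]; group
  have w1 : ∀ x x' y, w (x * x') y = w x y * w x' y := fun x x' y => s.sc_inj (by
    rw [mul_comm (w x y), map_mul, hw, hw x, ← mul_inv_cancel_right (sc (w x' y)) (x : Γ), ← cz, hw]
    simp only [commutatorElement_def, coe_mul]; group)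
  have w2 : ∀ x y, w y x = (w x y)⁻¹ := fun x y => s.sc_inj (by
    rw [map_inv, hw, hw, commutatorElement_inv])
  have w3 : ∀ x y : E, w x y = 1 ↔ (x : Γ) * y = y * x := fun x y => by
    rw [← commutatorElement_eq_one_iff_mul_comm, ← hw, map_eq_one_iff _ s.sc_inj]
  have w4 : ∀ {x x' : E} (y), π x = π x' → w x y = w x' y := fun {x x'} y h => by
    obtain ⟨c, hc⟩ := rel.1 h
    rw [show x = ⟨sc c, P.sc_le ⟨c, rfl⟩⟩ * x' from Subtype.ext hc, w1, (w3 _ _).2 (cz y c).symm,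
      one_mul]
  have w5 : ∀ x y, (w x y : K) ^ r = 1 := fun x y => by
    let f : E →* Kˣ := MonoidHom.mk' (w · y) (w1 · · y)
    obtain ⟨c, hc⟩ := hE x x.2
    have : f (x ^ r) = 1 := (w3 _ _).2 (by rw [coe_pow, ← hc, cz])
    rw [← Units.val_pow_eq_pow_val, show w x y ^ r = 1 from (map_pow f x r).symm.trans this,
      Units.val_one]
  obtain ⟨x₀, x1, x2⟩ := SetLike.not_le_iff_exists.1 P.ne
  obtain ⟨y₀, hζ⟩ : ∃ y, IsPrimitiveRoot (w ⟨x₀, x1⟩ y : K) r := by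
    by_contra! k
    refine x2 (P.cen x₀ x1 fun y hy => (w3 ⟨x₀, x1⟩ ⟨y, hy⟩).1 (by_contra fun k' => k ⟨y, hy⟩ ?_))
    rw [← orderOf_eq_prime (w5 _ _) (by simpa using k')]
    exact IsPrimitiveRoot.orderOf _
  let χ := AddChar.zmodChar r hζ.pow_eq_one
  have c1 : ∀ i, χ i = 1 ↔ i = 0 :=
    (AddChar.zmodChar_primitive_of_primitive_root r hζ).zmod_char_eq_one_iff r
  have c2 : Function.Injective χ := fun i j h => by
    have := χ.map_add_eq_mul (i - j) j
    rw [sub_add_cancel, h, right_eq_mul₀ fun k => by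
      simpa [k] using χ.map_add_eq_mul j (-j)] at this
    exact sub_eq_zero.1 ((c1 _).1 this)
  choose lg hlg using fun x y : E => show ∃ j, χ j = w x y by
    obtain ⟨i, h1, h2⟩ := hζ.eq_pow_of_pow_eq_one (w5 x y)
    exact ⟨i, by rw [AddChar.zmodChar_apply, ZMod.val_cast_of_lt h1, h2]⟩
  choose l l1 l2 l3 using fun a : W => show ∃ x : E, π x = a ∧
      (a = 0 → x = 1) ∧ ∀ y : E, π y = a → y ^ r = 1 → x ^ r = 1 by
    by_cases h : a = 0
    · exact ⟨1, h ▸ p0, fun _ => rfl, fun _ _ _ => one_pow r⟩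
    by_cases h' : ∃ y : E, π y = a ∧ y ^ r = 1
    · exact h'.imp fun y hy => ⟨hy.1, fun k => absurd k h, fun _ _ _ => hy.2⟩
    · obtain ⟨y, hy⟩ := p2 a
      exact ⟨y, hy, fun k => absurd k h, fun y a b => absurd ⟨y, a, b⟩ h'⟩
  have l4 : ∀ a b, π (l (a + b)) = π (l a * l b) := fun a b => by rw [p1, l1, l1, l1]
  have b1 : ∀ a a' b, lg (l (a + a')) (l b) = lg (l a) (l b) + lg (l a') (l b) := fun a a' b => c2 (by
    rw [χ.map_add_eq_mul, hlg, hlg, hlg, w4 _ (l4 a a'), w1, Units.val_mul])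
  have b2 : ∀ a b b', lg (l a) (l (b + b')) = lg (l a) (l b) + lg (l a) (l b') := fun a b b' => c2 (by
    rw [χ.map_add_eq_mul, hlg, hlg, hlg, w2, w4 _ (l4 b b'), w1, mul_inv, ← w2, ← w2, Units.val_mul])
  let B : W →ₗ[ZMod r] W →ₗ[ZMod r] ZMod r :=
    LinearMap.mk₂ (ZMod r) (fun a b => lg (l a) (l b)) b1
      (fun c a b => ZMod.map_smul (AddMonoidHom.mk' (fun a => lg (l a) (l b)) (b1 · · b)) c a) b2
      fun c a b => ZMod.map_smul (AddMonoidHom.mk' (fun b => lg (l a) (l b)) (b2 a)) c b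
  have hB : ∀ a b, χ (B a b) = w (l a) (l b) := fun a b => hlg _ _
  let T : E →* End K V :=
    { toFun := fun x => ⟨⟨fun v => (x : Γ) • v, smul_add _⟩, P.lin x x.2⟩
      map_one' := LinearMap.ext fun v => one_smul Γ v
      map_mul' := fun x y => LinearMap.ext fun v => mul_smul (x : Γ) (y : Γ) v }
  have hT : ∀ {x y : E} {c}, (x : Γ) = sc c * y → T x = (c : K) • T y := fun {x y c} h =>
    LinearMap.ext fun v => by
      change (x : Γ) • v = (c : K) • (y : Γ) • v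
      rw [h, mul_smul, s.hsc]
  obtain ⟨p, hp⟩ : ∃ p : Γ → W, ∀ x h, p x = π ⟨x, h⟩ :=
    ⟨fun x => if h : x ∈ E then π ⟨x, h⟩ else 0, fun _ h => dif_pos h⟩
  refine ⟨r, inferInstance, W, inferInstance, inferInstance, Finite.of_surjective π p2,
    ⟨π ⟨x₀, x1⟩, 0, fun k => x2 ((p4 _).1 k)⟩,
    ⟨fun a => T (l a), χ, B, ⟨fun a => (c1 _).1 ?_, fun a h => ?_⟩, χ.map_add_eq_mul, c1, ?_,
      fun a b => ?_, fun a b => ?_, fun a v c v0 h => ?_⟩, p,
    fun x hx y hy => ?_, fun a => ⟨l a, (l a).2, ?_⟩, fun x hx => ?_, hE, fun x hx => ?_⟩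
  · rw [hB, (w3 _ _).2 rfl, Units.val_one]
  · refine (l1 a).symm.trans ((p4 _).2 (P.cen _ (l a).2 fun y hy => ?_))
    refine ((w3 ⟨y, hy⟩ _).1 ?_).symm
    rw [← w4 _ (l1 _), w2, inv_eq_one, ← Units.val_eq_one, ← hB, h, χ.map_zero_eq_one]
  · rw [l2 0 rfl, map_one]
  · obtain ⟨c, hc⟩ := rel.1 (l4 a b).symm
    exact ⟨c, c.ne_zero, by rw [← map_mul, hT hc]⟩
  · rw [hB, ← map_mul, ← map_mul]
    exact hT (w0 _ _)
  · change (l a : Γ) • v = _ at h
    have c0 : c ≠ 0 := fun k => v0 (by rwa [k, zero_smul, smul_eq_zero_iff_eq] at h)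
    let y : E := ⟨sc (Units.mk0 c c0)⁻¹, P.sc_le ⟨_, rfl⟩⟩ * l a
    have y1 : (y : Γ) ∈ MulAction.stabilizer Γ v := by
      change (sc _ * _) • v = v
      rw [mul_smul, h, s.hsc, smul_smul]; simp [c0]
    obtain ⟨d, hd⟩ := hE y y.2
    have y2 : (d : K) • v = (1 : K) • v := by rw [← s.hsc, hd, one_smul]; exact pow_mem y1 r
    rw [← map_pow, l3 a y ((rel.2 ⟨_, rfl⟩).trans (l1 a)) (Subtype.ext (by
      rw [coe_pow, ← hd, Units.val_eq_one.1 (smul_left_injective K v0 y2), map_one]; rfl)), map_one]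
  · rw [hp _ hx, hp _ hy, hp _ (mul_mem hx hy)]; exact p1 ⟨x, hx⟩ ⟨y, hy⟩
  · exact (hp _ (l a).2).trans (l1 a)
  · rw [hp _ hx]; exact p4 _
  · obtain ⟨c, hc⟩ := rel.1 ((hp x hx).symm.trans (l1 _).symm)
    exact ⟨c, c.ne_zero, LinearMap.congr_fun (hT hc)⟩

end H66.CLb
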