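/- CKS (S2193), orthogonal and unitary chapter: interface and kit (blueprints/CKO.md). -/
import Cfsg.Agent.H32.CKKit2
import Cfsg.Agent.H26.MinCount
import Cfsg.Agent.H26.MinU6
import Cfsg.Agent.H56.RootSylow
import Cfsg.Agent.H59.Levi
import Cfsg.Agent.H60.Ext

set_option autoImplicit false
set_option linter.unusedSectionVars false

namespace H66.CK
open Module MulAction QuadraticMap H56 H60

/-- Chapter B, lifted to a central extension. -/
structure LB (p : ℕ) (Γ Ω : Type) [Group Γ] [MulAction Γ Ω] : Prop where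
  two : IsMultiplyPretransitive Γ Ω 2
  nt : Nontrivial Ω
  ker : ∀ g : Γ, (∀ a : Ω, g • a = a) → g ∈ Subgroup.center Γ
  bt : ∀ (U : Sylow p Γ) (a b : Ω), ∃ g ∈ Subgroup.normalizer ((U : Subgroup Γ) : Set Γ), g • a = b

/-- The stabiliser of a point, as a subgroup of the ambient group. -/
def St {A : Type} [Group A] (Γ : Subgroup A) {Ω : Type} [MulAction Γ Ω] (a : Ω) : Subgroup A :=
  (stabilizer Γ a).map Γ.subtype

section st
variable {A : Type} [Group A] {Γ : Subgroup A} {Ω : Type} [MulAction Γ Ω]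

theorem mem_St {a : Ω} {g : A} : g ∈ St Γ a ↔ ∃ h : g ∈ Γ, (⟨g, h⟩ : Γ) • a = a :=
  ⟨by rintro ⟨k, hk, rfl⟩; exact ⟨k.2, hk⟩, fun ⟨h, e⟩ => ⟨⟨g, h⟩, e, rfl⟩⟩

theorem coe_mem_St {a : Ω} {g : Γ} : (g : A) ∈ St Γ a ↔ g • a = a :=
  mem_St.trans ⟨fun ⟨_, e⟩ => e, fun e => ⟨g.2, e⟩⟩

theorem St_le (a : Ω) : St Γ a ≤ Γ := Subgroup.map_subtype_le _

theorem conj_mem_St (g : Γ) {a : Ω} {k : A} :
    (g : A) * k * (g : A)⁻¹ ∈ St Γ (g • a) ↔ k ∈ St Γ a := by
  constructor
  · intro h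
    have hk : k ∈ Γ := by
      simpa [mul_assoc] using Γ.mul_mem (Γ.mul_mem (Γ.inv_mem g.2) (St_le _ h)) g.2
    have := (coe_mem_St (g := g * ⟨k, hk⟩ * g⁻¹)).1 h
    rw [mul_smul, mul_smul, inv_smul_smul, smul_left_cancel_iff] at this
    exact mem_St.2 ⟨hk, this⟩
  · intro h
    obtain ⟨hk, e⟩ := mem_St.1 h
    exact (coe_mem_St (g := g * ⟨k, hk⟩ * g⁻¹) (a := g • a)).2
      (by rw [mul_smul, mul_smul, inv_smul_smul, e])

theorem relIndex_St [IsPretransitive Γ Ω] (a : Ω) : (St Γ a).relIndex Γ = Nat.card Ω := by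
  rw [Subgroup.relIndex, St, Subgroup.subgroupOf,
    Subgroup.comap_map_eq_self_of_injective Γ.subtype_injective, index_stabilizer_of_transitive]

end st

section gen
variable {p : ℕ} {Γ Ω : Type} [Group Γ] [Finite Γ] [MulAction Γ Ω] [Finite Ω]

theorem LB.pre (h : LB p Γ Ω) : IsPretransitive Γ Ω :=
  haveI := h.two
  isPretransitive_of_is_two_pretransitive

/-- In a transitive action of degree `p ^ k` the Sylow subgroups are transitive. -/
theorem sylow_trans [hp : Fact p.Prime] [IsPretransitive Γ Ω] {k : ℕ} (hn : Nat.card Ω = p ^ k)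
    (U : Sylow p Γ) (a b : Ω) : ∃ u ∈ (U : Subgroup Γ), u • a = b := by
  refine H32.CK.trans_of_relIndex (Nat.dvd_antisymm ?_ ?_) b
  · obtain ⟨j, hj⟩ := (U.2.card_orbit a)
    rw [← H32.CK.card_orbit, hj, hn]
    refine pow_dvd_pow _ ((Nat.pow_le_pow_iff_right hp.out.one_lt).1 ?_)
    rw [← hj, ← hn]
    exact Finite.card_subtype_le _
  · have h1 : (stabilizer Γ a).index ∣ (stabilizer Γ a).relIndex U * (U : Subgroup Γ).index := by
      rw [← Subgroup.inf_relIndex_right, Subgroup.relIndex_mul_index inf_le_right]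
      exact Subgroup.index_dvd_of_le inf_le_left
    rw [index_stabilizer_of_transitive, hn] at h1
    rw [hn]
    exact (Nat.Coprime.pow_left k ((Nat.Prime.coprime_iff_not_dvd hp.out).2
      U.not_dvd_index)).dvd_of_dvd_mul_right h1

/-- All orbits of a `p`-group are long. -/
theorem pow_dvd_of_le [hp : Fact p.Prime] {R : Subgroup Γ} (hR : IsPGroup p R) {j : ℕ}
    (h : ∀ a : Ω, p ^ j ≤ Nat.card (orbit R a)) : p ^ j ∣ Nat.card Ω :=
  H32.CK.mod_dvd R fun a => by
    obtain ⟨i, hi⟩ := hR.card_orbit a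
    have := h a
    rw [← H32.CK.card_orbit, hi]
    exact pow_dvd_pow _ ((Nat.pow_le_pow_iff_right hp.out.one_lt).1 (hi ▸ this))

end gen

section orth
variable {F V : Type} [Field F] [AddCommGroup V] [Module F V]

/-- No long root element fixes a point. -/
def RF (Q : QuadraticForm F V) (Ω : Type) [MulAction (EG Q) Ω] : Prop :=
  ∀ (a : Ω) (x y : V), Q x = 0 → Q y = 0 → polar Q x y = 0 → eich Q x y ∈ St (EG Q) a →
    eich Q x y = 1

/-- No Eichler transformation fixes a point. -/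
def EF (Q : QuadraticForm F V) (Ω : Type) [MulAction (EG Q) Ω] : Prop :=
  ∀ (a : Ω) (x y : V), Q x = 0 → polar Q x y = 0 → eich Q x y ∈ St (EG Q) a → eich Q x y = 1

/-- The long root elements. -/
def LR (Q : QuadraticForm F V) : Set (O Q) :=
  {g | g ≠ 1 ∧ ∃ x y, Q x = 0 ∧ Q y = 0 ∧ polar Q x y = 0 ∧ g = eich Q x y}

variable [Fintype F] [FiniteDimensional F V] {Q : QuadraticForm F V} {e f : V}

theorem card_hyp [DecidableEq F] (c : F) : Nat.card {z : F × F // z.1 * z.2 = c} =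
    Fintype.card F - 1 + if c = 0 then Fintype.card F else 0 := by
  have e : {z : F × F // z.1 * z.2 = c} ≃ Σ b : F, {a : F // a * b = c} :=
    { toFun := fun z => ⟨z.1.2, z.1.1, z.2⟩
      invFun := fun z => ⟨(z.2.1, z.1), z.2.2⟩
      left_inv := fun _ => rfl
      right_inv := fun _ => rfl }
  rw [Nat.card_congr e, Nat.card_sigma, ← Finset.sum_erase_add _ _ (Finset.mem_univ 0),
    Finset.sum_congr rfl (g := fun _ => 1) fun b hb => ?_]
  · congr 1
    · simp [Finset.card_univ]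
    · split_ifs with h
      · simp [h]
      · simp [Ne.symm h]
  · have hb : b ≠ 0 := Finset.ne_of_mem_erase hb
    exact Nat.card_eq_one_iff_exists.2 ⟨⟨c / b, by field_simp⟩, fun a =>
      Subtype.ext (by rw [eq_div_iff hb, a.2])⟩

/-- Vectors of given norm, through a hyperbolic pair. -/
theorem card_Q_eq (h : IsHyp Q e f) (c : F) : Nat.card {v // Q v = c} =
    (Fintype.card F - 1) * Fintype.card F ^ (finrank F V - 2) +
      Fintype.card F * Nat.card {u : hperp Q e f // Q u = c} := by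
  classical
  have : Finite V := Module.finite_of_finite F
  have := Fintype.ofFinite (hperp Q e f)
  have e1 : {v // Q v = c} ≃ Σ u : hperp Q e f, {z : F × F // z.1 * z.2 = c - Q u} :=
    ((h.equiv.toEquiv.subtypeEquiv (p := fun z => z.2.1 * z.2.2 = c - Q z.1) fun z => by
      rw [LinearEquiv.coe_toEquiv, h.Q_equiv, QuadraticMap.prod_apply, hypQ_apply, eq_sub_iff_add_eq']
      rfl).symm).trans
    { toFun := fun z => ⟨z.1.1, z.1.2, z.2⟩
      invFun := fun z => ⟨(z.1, z.2.1), z.2.2⟩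
      left_inv := fun _ => rfl
      right_inv := fun _ => rfl }
  rw [Nat.card_congr e1, Nat.card_sigma]
  simp only [card_hyp, Finset.sum_add_distrib, Finset.sum_const, Finset.card_univ, smul_eq_mul,
    sub_eq_zero, ← Finset.sum_filter]
  rw [Module.card_fintype (finBasis F (hperp Q e f)), Fintype.card_fin, ← h.finrank_hperp,
    Nat.add_sub_cancel, mul_comm, mul_comm _ (Fintype.card F), Nat.card_eq_fintype_card,
    Fintype.card_subtype]
  simp only [eq_comm]

end orth

section uni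
variable {F V : Type} [Field F] [AddCommGroup V] [Module F V] {σ : F →+* F}

/-- No transvection fixes a point. -/
def TF (B : V →ₛₗ[σ] V →ₗ[F] F) (Ω : Type) [MulAction (H59.sisom B) Ω] : Prop :=
  ∀ (a : Ω) (x : V), B x x = 0 → ∀ g ∈ H59.axisGrp B x, g ∈ St (H59.sisom B) a → g = 1

end uni

/-- Counting the long root elements. -/
def JobCnt : Prop := ∀ (F V : Type) [Field F] [Fintype F] [AddCommGroup V] [Module F V]
  [FiniteDimensional F V] (Q : QuadraticForm F V), Q.polarBilin.Nondegenerate → ∀ a b : ℕ,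
  Nat.card {v // Q v = 0} = a + 1 →
  Nat.card {v // Q v = 0} = b + ((Fintype.card F - 1) * Fintype.card F ^ (finrank F V - 2) +
    Fintype.card F) →
  Fintype.card F * (Fintype.card F ^ 2 - 1) * (LR Q).ncard = a * b

/-- The Heisenberg bound. -/
def JobHZ : Prop := ∀ (F V β : Type) [Field F] [Fintype F] [AddCommGroup V] [Module F V]
  [FiniteDimensional F V] (Q : QuadraticForm F V), Q.polarBilin.Nondegenerate →
  ∀ (x y x' y' : V) (h : H26.Frm Q x y x' y') (M : Subgroup (O Q)) (W : Submodule F V),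
  W ≤ H26.fU Q x y x' y' → h.Ro M ≠ ⊤ → ∀ (φ : V × V → F → β) (S : Finset β),
  (∀ v : V × V, v.1 ∈ W → v.2 ∈ W → ∀ t, φ v t ∈ S) →
  (∀ v v' : V × V, v.1 ∈ W → v.2 ∈ W → v'.1 ∈ W → v'.2 ∈ W → ∀ t t', φ v t = φ v' t' →
    (H26.ee Q x y v t)⁻¹ * H26.ee Q x y v' t' ∈ M) →
  Fintype.card F ^ (2 * finrank F W + 1) ≤
    S.card * (Fintype.card F ^ (finrank F V - 4) * Nat.card (h.Ro M))

/-- The long root elements have no fixed points. -/
def JobO1 : Prop := ∀ (p : ℕ) [Fact p.Prime] (F V Ω : Type) [Field F] [Fintype F] [CharP F p]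
  [AddCommGroup V] [Module F V] [FiniteDimensional F V] (Q : QuadraticForm F V) [Finite Ω]
  [MulAction (EG Q) Ω], Q.polarBilin.Nondegenerate → 7 ≤ finrank F V → LB p (EG Q) Ω → RF Q Ω

/-- Degree `q ^ (2 m)`, first step. -/
def JobOddA : Prop := ∀ (F V Ω : Type) [Field F] [Fintype F] [AddCommGroup V] [Module F V]
  [FiniteDimensional F V] (Q : QuadraticForm F V) [Finite Ω] [MulAction (EG Q) Ω]
  [IsPretransitive (EG Q) Ω] (m : ℕ), Q.polarBilin.Nondegenerate → (2 : F) ≠ 0 → 3 ≤ m →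
  finrank F V = 2 * m + 1 →
  (∀ c : F, c ≠ 0 → Nat.card {v // Q v = c} = Fintype.card F ^ (2 * m) + Fintype.card F ^ m ∨
    Nat.card {v // Q v = c} + Fintype.card F ^ m = Fintype.card F ^ (2 * m)) →
  Nat.card Ω = Fintype.card F ^ (2 * m) → RF Q Ω → EF Q Ω

/-- Degree `q ^ (2 m)`, second step. -/
def JobOddB : Prop := JobHZ → ∀ (F V Ω : Type) [Field F] [Fintype F] [AddCommGroup V] [Module F V]
  [FiniteDimensional F V] (Q : QuadraticForm F V) [Finite Ω] [MulAction (EG Q) Ω]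
  [IsPretransitive (EG Q) Ω], Q.polarBilin.Nondegenerate → (2 : F) ≠ 0 → 7 ≤ finrank F V →
  Nat.card Ω = Fintype.card F ^ (finrank F V - 1) → EF Q Ω → False

/-- The ovoid lemma. -/
def JobOv : Prop := ∀ (F : Type) [Field F] [Fintype F] (q : ℕ) (hF : Fintype.card F = q ^ 2)
  (W : AddSubgroup (F × F × F)) (ρ : ℕ),
  (∀ s t : F, ¬ (s = 0 ∧ t = 0) → Nat.card {a : F // a + H59.frob hF a = 0 ∧
    (a * (s * H59.frob hF s), a * (s * H59.frob hF t), a * (t * H59.frob hF t)) ∈ W} = ρ) →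
  ρ = 1 ∨ ρ = q

/-- The transvections have no fixed points. -/
def JobU2 : Prop := JobOv → ∀ (p : ℕ) [Fact p.Prime] (F V Ω : Type) [Field F] [Fintype F]
  [CharP F p] [AddCommGroup V] [Module F V] [FiniteDimensional F V] (q : ℕ)
  (hF : Fintype.card F = q ^ 2) (B : V →ₛₗ[H59.frob hF] V →ₗ[F] F) [Finite Ω]
  [MulAction (H59.sisom B) Ω], H59.IsHerm B → 4 ≤ finrank F V → LB p (H59.sisom B) Ω → TF B Ω

end H66.CK
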