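import Cfsg.Agent.H42.IVSpec
import Cfsg.Agent.H2.Fitting

/-! # IV-Red -/

set_option autoImplicit false

namespace H66.IVRed

open Subgroup Nat H42.IV Cfsg

universe u

theorem jobRed : JobRed.{u} := by
  intro hQ hC hK
  have key : ∀ (n : ℕ) (H : Type u) [Group H] [Finite H] (a : H) (h : ℕ), Nat.card H = n → 1 ≤ h →
      St H a → (J a).ncard ≤ 2 * h + 1 → (fittingSubgroup H).index < (2 * h + 1)! ^ 4 := by
    intro n
    induction n using Nat.strong_induction_on with
    | _ n ih =>
    intro H _ _ a h hn h1 hs hJ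
    by_cases hz : center H = ⊥
    · have : Fact (Nat.Prime 2) := ⟨Nat.prime_two⟩
      have hc := hC H a h hs hJ hz
      obtain ⟨hs', hJ'⟩ := hQ H a (pCore 2 H) hs
      have hO : O2 (H ⧸ pCore 2 H) := by
        intro N hN hp
        have h2 : IsPGroup 2 (N.comap (QuotientGroup.mk' (pCore 2 H))) :=
          hp.comap_of_ker_isPGroup _ (by rw [QuotientGroup.ker_mk']; exact H2.pCore_isPGroup 2 H)
        have h3 : N.comap (QuotientGroup.mk' (pCore 2 H)) ≤ pCore 2 H :=
          le_sSup ⟨hN.comap _, h2⟩
        rw [eq_bot_iff]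
        intro x hx
        obtain ⟨y, rfl⟩ := QuotientGroup.mk_surjective x
        exact (QuotientGroup.eq_one_iff y).2 (h3 hx)
      have h4 := hK _ _ h h1 hs' (hJ'.trans hJ) hO
        ((H9.card_centralizer_quotient_le _ a).trans hc)
      refine lt_of_le_of_lt ?_ h4
      exact Nat.le_of_dvd Nat.card_pos (index_dvd_of_le (H2.pCore_le_fitting 2 H))
    · obtain ⟨hs', hJ'⟩ := hQ H a (center H) hs
      have hlt : Nat.card (H ⧸ center H) < n := by
        rw [← hn, card_eq_card_quotient_mul_card_subgroup (center H)]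
        have := (center H).one_lt_card_iff_ne_bot.2 hz
        have h0 : 0 < Nat.card (H ⧸ center H) := Nat.card_pos
        nlinarith
      have h4 := ih _ hlt _ _ h rfl h1 hs' (hJ'.trans hJ)
      rwa [← H2.comap_fitting_of_ker_le_center (QuotientGroup.mk' (center H))
        (QuotientGroup.mk'_surjective _) (QuotientGroup.ker_mk' _).le,
        index_comap_of_surjective _ (QuotientGroup.mk'_surjective _)]
  intro H _ _ a h
  exact key _ H a h rfl

end H66.IVRed
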