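import Cfsg.Agent.H42.SimXBSpec

/-! Tower SIM, chapter XB, slot Fd: the Frobenius divisibility. -/

set_option autoImplicit false

namespace H66.SimFd

open Subgroup

theorem mem_of_pow {G : Type*} [Group G] [Finite G] {A : Subgroup G} {h b : G} {p : ℕ}
    (hp : 0 < p) (hA : Nat.card A = p) (hle : A ≤ zpowers h) (hb : b ∈ zpowers h)
    (hbp : b ^ p = 1) : b ∈ A := by
  classical
  have : Fintype (zpowers h) := Fintype.ofFinite _
  have h1 := IsCyclic.card_pow_eq_one_le (α := zpowers h) hp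
  have h2 : (Finset.univ.filter fun a : zpowers h => (a : G) ∈ A).card = p := by
    rw [← hA, ← Nat.card_congr (subgroupOfEquivOfLe hle).toEquiv, Nat.card_eq_fintype_card,
      ← Fintype.card_subtype]
    exact Fintype.card_congr (Equiv.refl _)
  have h3 : (Finset.univ.filter fun a : zpowers h => (a : G) ∈ A) ⊆
      Finset.univ.filter fun a : zpowers h => a ^ p = 1 := by
    intro a ha
    rw [Finset.mem_filter] at ha ⊢
    refine ⟨ha.1, Subtype.ext ?_⟩
    have := pow_card_eq_one' (G := A) (x := ⟨a, ha.2⟩)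
    rw [hA] at this
    have h6 : (a : G) ^ p = 1 := congrArg (Subtype.val : A → G) this
    exact h6
  have h4 := Finset.eq_of_subset_of_card_le h3 (h2 ▸ h1)
  have h5 : (⟨b, hb⟩ : zpowers h) ∈ Finset.univ.filter fun a : zpowers h => a ^ p = 1 :=
    Finset.mem_filter.2 ⟨Finset.mem_univ _, Subtype.ext hbp⟩
  rw [← h4] at h5
  exact (Finset.mem_filter.1 h5).2

theorem jobFd : H42.SX.JobFd := by
  intro F K _ _ _ _ _ γ p N hp h1 hγ hk
  classical
  have : Fact p.Prime := ⟨hp⟩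
  set φ := FiniteField.frobeniusAlgEquivOfAlgebraic F K with hφ
  set Q := Fintype.card F with hQ
  have oφ : orderOf φ = Module.finrank F K := FiniteField.orderOf_frobeniusAlgEquivOfAlgebraic F K
  have pw : ∀ (i : ℕ) (x : K), (φ ^ i) x = x ^ Q ^ i := fun i x => by
    rw [AlgEquiv.coe_pow, hφ, FiniteField.coe_frobeniusAlgEquivOfAlgebraic_iterate]
  obtain ⟨i, hi⟩ := (FiniteField.bijective_frobeniusAlgEquivOfAlgebraic_pow F K).2 γ
  replace hi : φ ^ (i : ℕ) = γ := hi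
  have oγ : orderOf γ = p := orderOf_eq_prime hγ h1
  have hle : zpowers γ ≤ zpowers φ := zpowers_le.2 ⟨i, by simp [← hi]⟩
  obtain ⟨d, hd⟩ : p ∣ Module.finrank F K := by
    rw [← oγ, ← oφ, ← hi]
    exact orderOf_pow_dvd _
  rw [mul_comm] at hd
  refine ⟨d, hd, ?_⟩
  have hm : φ ^ d ∈ zpowers γ := mem_of_pow hp.pos (by rw [Nat.card_zpowers, oγ]) hle
    (npow_mem_zpowers φ d) (by rw [← pow_mul, ← hd, ← oφ, pow_orderOf_eq_one])
  obtain ⟨j, hj⟩ := (Submonoid.mem_powers_iff _ _).1 (mem_powers_iff_mem_zpowers.2 hm)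
  obtain ⟨k, hk0⟩ := IsCyclic.exists_ofOrder_eq_natCard (α := Kˣ)
  have cK : Fintype.card K = Q ^ (d * p) := by rw [← hd]; exact Module.card_eq_pow_finrank
  rw [Nat.card_eq_fintype_card, Fintype.card_units, cK] at hk0
  set e := Q ^ (i : ℕ) with he
  have hγx : ∀ m : ℤ, γ ((k : K) ^ m) = (k : K) ^ (m * e) := fun m => by
    rw [← hi, pw, zpow_mul, zpow_natCast]
  have hD : ∀ m : ℤ, (k : K) ^ m / γ ((k : K) ^ m) = (k : K) ^ (m * (1 - e)) := fun m => by
    rw [hγx, ← zpow_sub₀ k.ne_zero]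
    congr 1
    ring
  have h2 := hk k k.ne_zero ((k : K) ^ ((N : ℤ) * (1 - e))) ((k : K) ^ ((N : ℤ) * (1 - e) * (1 - e)))
    (by rw [← hD, zpow_natCast]) (by rw [hD])
  have h3 : (orderOf k : ℤ) ∣ (N : ℤ) * (1 - e) * (1 - e) * (1 - e) := by
    rw [orderOf_dvd_iff_zpow_eq_one, ← Units.val_eq_one, Units.val_zpow_eq_zpow_val, ← hD, ← h2,
      div_self (zpow_ne_zero _ k.ne_zero)]
  have h4 : Q ^ d ≡ e ^ j [MOD orderOf k] := by
    rw [← pow_eq_pow_iff_modEq, ← Units.val_inj, Units.val_pow_eq_pow_val,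
      Units.val_pow_eq_pow_val, ← pw, ← hj, ← hi, ← pow_mul, pw, he, pow_mul]
  obtain ⟨c, hc⟩ := (Nat.modEq_iff_dvd.1 h4)
  obtain ⟨w, hw⟩ : (1 - (e : ℤ)) ∣ 1 - (e : ℤ) ^ j := by
    simpa using sub_dvd_pow_sub_pow (1 : ℤ) e j
  have hQ1 : 1 ≤ Q ^ d := Nat.one_le_pow _ _ Fintype.card_pos
  rw [← hk0, ← Int.natCast_dvd_natCast]
  push_cast [Nat.cast_sub hQ1] at hc ⊢
  have h5 : (Q : ℤ) ^ d - 1 = -((1 - e) * w) - orderOf k * c := by rw [← hw, ← hc]; ring
  obtain ⟨v, hv⟩ := h3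
  rw [h5]
  exact ⟨-(v * w ^ 3) - N * c * (3 * ((1 - e) * w) ^ 2 + 3 * ((1 - e) * w) * (orderOf k * c) +
    (orderOf k * c) ^ 2), by linear_combination (-w ^ 3) * hv⟩

end H66.SimFd
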