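import Cfsg.Agent.H46.BWSpec

/-! Simple groups of order `2^a · 3 · 5 · q^b` (row S3270): the slot `P` (possible degrees). -/

set_option autoImplicit false

namespace H66.BWP

theorem odd_dvd {a W : ℕ} (o : W % 2 = 1) {n : ℕ} (h : W ∣ 2 ^ a * n) : W ∣ n :=
  (Nat.Coprime.pow_right a (Nat.coprime_two_right.2 (Nat.odd_iff.2 o))).dvd_of_dvd_mul_left h

theorem pow16 (k : ℕ) : 16 ^ k % 15 = 1 := by simp [Nat.pow_mod]

theorem split4 (α : ℕ) : ∃ k, 2 ^ α = 16 ^ k ∨ 2 ^ α = 2 * 16 ^ k ∨ 2 ^ α = 4 * 16 ^ k ∨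
    2 ^ α = 8 * 16 ^ k := by
  refine ⟨α / 4, ?_⟩
  have e : 2 ^ α = 2 ^ (α % 4) * 16 ^ (α / 4) := by
    rw [show 16 = 2 ^ 4 from rfl, ← pow_mul, ← pow_add, Nat.mod_add_div]
  have : α % 4 < 4 := Nat.mod_lt _ (by norm_num)
  rw [e]
  generalize α % 4 = r at *
  interval_cases r <;> simp

theorem L2 {q γ α x : ℕ} (hq : q.Prime) (h2 : q ≠ 2) (h3 : x % 3 = 1)
    (h : (x = 2 ^ α ∧ x + 1 = 5 * q ^ γ) ∨ (x + 1 = 2 ^ α ∧ x = 5 * q ^ γ)) :
    x = 4 ∨ (x = 64 ∧ q = 13) := by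
  obtain ⟨k, hk⟩ := split4 α
  have h15 := pow16 k
  rcases h with ⟨e1, e2⟩ | ⟨e1, e2⟩
  swap
  · omega
  have e3 : x = 4 * 16 ^ k := by omega
  obtain ⟨n, hn⟩ : ∃ n, 2 ^ k = n + 1 := ⟨2 ^ k - 1, by have := Nat.two_pow_pos k; omega⟩
  have e4 : x = 4 * (n + 1) ^ 4 := by rw [e3, ← hn, ← pow_mul, mul_comm k, pow_mul]; rfl
  have e5 : (2 * n ^ 2 + 6 * n + 5) * (2 * n ^ 2 + 2 * n + 1) = q ^ γ * 5 := by
    rw [mul_comm _ 5, ← e2, e4]; ring
  have key : ∀ U, U ∣ q ^ γ * 5 → ¬ q ∣ U → U ≤ 5 := fun U a b => Nat.le_of_dvd (by norm_num)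
    ((Nat.Coprime.pow_right γ ((Nat.Prime.coprime_iff_not_dvd hq).2 b).symm).dvd_of_dvd_mul_left a)
  have h0 : n ≤ 1 := by
    by_cases a : q ∣ 2 * n ^ 2 + 6 * n + 5
    · have := key _ (Dvd.intro_left _ e5) fun b => h2 (by
        have c : q ∣ 2 ^ (k + 2) := by
          rw [pow_add, hn, ← Nat.dvd_add_right b]
          convert a using 1; ring
        exact (Nat.prime_dvd_prime_iff_eq hq Nat.prime_two).1 (hq.dvd_of_dvd_pow c))
      nlinarith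
    · have := key _ (Dvd.intro _ e5) a
      nlinarith
  interval_cases n
  · exact .inl e4
  refine .inr ⟨e4, ?_⟩
  have e6 : q ^ γ = 13 := by omega
  have : γ ≠ 0 := by rintro rfl; simp at e6
  exact (Nat.prime_dvd_prime_iff_eq hq (by norm_num)).1 (e6 ▸ dvd_pow_self q this)

theorem cof {q s : ℤ} (hq : Odd q) (hs : s = 1 ∨ s = -1) (j : ℕ) :
    ∃ W, Odd W ∧ q ^ (2 * j + 1) - s = (q - s) * W := by
  induction j with
  | zero => exact ⟨1, odd_one, by simp⟩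
  | succ j ih =>
    obtain ⟨W, a, b⟩ := ih
    refine ⟨q ^ 2 * W + s * (q + s), (hq.pow.mul a).add_even (Even.mul_left (hq.add_odd ?_) _), ?_⟩
    · rcases hs with rfl | rfl <;> decide
    · have : s * s = 1 := by rcases hs with rfl | rfl <;> rfl
      linear_combination q ^ 2 * b + s * this

theorem L1 {q γ a A : ℕ} (hq : q.Prime) (h7 : 7 ≤ q) (hγ : 2 ≤ γ) (hA : A ∣ 2 ^ a * 5) (h3 : A % 3 ≠ 0)
    (h : A = q ^ γ + 1 ∨ A + 1 = q ^ γ) : False := by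
  have o : q % 2 = 1 := hq.eq_two_or_odd.resolve_left (by omega)
  have t : q % 3 ≠ 0 := fun e => by
    have := (Nat.prime_dvd_prime_iff_eq Nat.prime_three hq).1 (Nat.dvd_of_mod_eq_zero e)
    omega
  rcases Nat.even_or_odd' γ with ⟨j, rfl | rfl⟩
  · have e1 : q ^ 2 % 12 = 1 := by
      rw [Nat.pow_mod]
      have : q % 12 = 1 ∨ q % 12 = 5 ∨ q % 12 = 7 ∨ q % 12 = 11 := by omega
      rcases this with e | e | e | e <;> rw [e]
    have e2 : q ^ (2 * j) % 12 = 1 := by rw [pow_mul, Nat.pow_mod, e1]; simp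
    have e3 : 7 ^ 2 ≤ q ^ (2 * j) := (Nat.pow_le_pow_left h7 2).trans (Nat.pow_le_pow_right hq.pos hγ)
    have e4 : A / 2 ∣ A := Dvd.intro_left 2 (by omega)
    have := Nat.le_of_dvd (by norm_num) (odd_dvd (by omega) (e4.trans hA))
    omega
  obtain ⟨s, hs, e⟩ : ∃ s : ℤ, (s = 1 ∨ s = -1) ∧ (A : ℤ) = (q : ℤ) ^ (2 * j + 1) - s := by
    rcases h with h | h
    · exact ⟨-1, .inr rfl, by rw [h]; push_cast; ring⟩
    · exact ⟨1, .inl rfl, by rw [← Nat.cast_pow, ← h]; push_cast; ring⟩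
  obtain ⟨W, w1, w2⟩ := cof (q := q) (by exact_mod_cast Nat.odd_iff.2 o) hs j
  have e1 : W.natAbs ∣ A := Int.natAbs_dvd_natAbs.2 (Dvd.intro_left _ (e.trans w2).symm)
  have e2 := Nat.le_of_dvd (by norm_num)
    (odd_dvd (Nat.odd_iff.1 (Int.natAbs_odd.2 w1)) (e1.trans hA))
  have e3 : (q : ℤ) ^ 3 ≤ (q : ℤ) ^ (2 * j + 1) :=
    pow_le_pow_right₀ (by exact_mod_cast hq.pos) (by omega)
  have e4 : W ≤ 5 := by omega
  have e5 : (7 : ℤ) ≤ q := by exact_mod_cast h7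
  have e6 : (q - s) * W ≤ (q - s) * 5 := mul_le_mul_of_nonneg_left e4 (by omega)
  have e7 : (49 : ℤ) * q ≤ (q : ℤ) ^ 3 := by
    nlinarith [mul_nonneg (by omega : (0 : ℤ) ≤ q) (mul_nonneg (sub_nonneg.2 e5) (by omega : (0 : ℤ) ≤ q + 7))]
  omega

theorem core {a b q x A B : ℕ} (hq : q.Prime) (q3 : q ≠ 3) (h2 : 2 ≤ x) (h3 : x % 3 = 1)
    (h : (A = x ∧ B = x + 1) ∨ (A = x + 1 ∧ B = x)) (o : B % 2 = 1) (hd : A * B ∣ 2 ^ a * 5 * q ^ b) :
    x = 4 ∨ (7 ≤ q ∧ (q = x ∨ q = x + 1)) ∨ (x = 64 ∧ q = 13) := by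
  have co : Nat.Coprime A B := by rcases h with ⟨rfl, rfl⟩ | ⟨rfl, rfl⟩ <;> simp
  obtain ⟨d, e, d1, d2, rfl⟩ := (Nat.dvd_mul).1
    (odd_dvd o (by rw [← mul_assoc]; exact (Dvd.intro_left _ rfl).trans hd))
  obtain ⟨γ, -, rfl⟩ := (Nat.dvd_prime_pow hq).1 d2
  rcases Nat.eq_zero_or_pos γ with rfl | g0
  · have := Nat.le_of_dvd (by norm_num) d1
    rw [pow_zero, mul_one] at h o
    omega
  have q1 : q ∣ d * q ^ γ := (dvd_pow_self q g0.ne').mul_left d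
  have q2 : q ≠ 2 := by rintro rfl; omega
  have a1 : A ∣ 2 ^ a * 5 := (Nat.Coprime.pow_right b (co.coprime_dvd_right q1)).dvd_of_dvd_mul_right
    ((Dvd.intro _ rfl).trans hd)
  have k : ∀ γ', d * q ^ γ = 5 * q ^ γ' → x = 4 ∨ (7 ≤ q ∧ (q = x ∨ q = x + 1)) ∨ (x = 64 ∧ q = 13) :=
    fun γ' e => by
      rw [e] at co h
      obtain ⟨α, -, rfl⟩ := (Nat.dvd_prime_pow Nat.prime_two).1
        ((co.coprime_dvd_right (Dvd.intro _ rfl)).dvd_of_dvd_mul_right a1)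
      exact (L2 (α := α) (γ := γ') hq q2 h3 (by omega)).imp_right .inr
  rcases (Nat.dvd_prime Nat.prime_five).1 d1 with rfl | rfl
  swap
  · exact k γ rfl
  by_cases q5 : q = 5
  · exact k (γ - 1) (by rw [q5, one_mul, ← pow_succ', Nat.sub_add_cancel g0])
  have q7 : 7 ≤ q := by
    have := hq.two_le
    have := hq.eq_two_or_odd
    omega
  rw [one_mul] at h
  rcases Nat.lt_or_ge γ 2 with g | g
  · obtain rfl : γ = 1 := by omega
    rw [pow_one] at h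
    exact .inr (.inl ⟨q7, by omega⟩)
  · exact (L1 hq q7 g a1 (by omega) (by omega)).elim

theorem jobP : H46.BW.JobP := fun a b q x hq q3 h2 h3 hd => by
  have c3 : Nat.Coprime (x * (x + 1)) 3 := ((Nat.Prime.coprime_iff_not_dvd Nat.prime_three).2 fun k =>
    ((Nat.Prime.dvd_mul Nat.prime_three).1 k).elim (by omega) (by omega)).symm
  have hd' : x * (x + 1) ∣ 2 ^ a * 5 * q ^ b :=
    c3.dvd_of_dvd_mul_left (by convert hd using 1; ring)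
  rcases Nat.mod_two_eq_zero_or_one x with o | o
  · exact core hq q3 h2 h3 (.inl ⟨rfl, rfl⟩) (by omega) hd'
  · exact core hq q3 h2 h3 (.inr ⟨rfl, rfl⟩) o (by rwa [mul_comm])

end H66.BWP
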