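/- CKS (S2193): condition (C) for the unitary groups. -/
import Cfsg.Agent.H9.CKASpec

set_option autoImplicit false
set_option linter.unusedSectionVars false

namespace H66.CKC
open Matrix H54
open scoped commutatorElement

variable {F : Type} [Field F] [Fintype F] {q : ℕ} (hF : Fintype.card F = q ^ 2) (n : ℕ)

theorem hU_single (i : UIdx n) (x : UIdx n → F) :
    (fdU hF n).sq (fdU hF n).hM (Pi.single i 1) x = x (Sum.map Sum.swap id i) := by
  rw [FD.sq_single_left, fdU_hM]
  rcases i with (k | k) | j <;> simp [Fintype.sum_sum_type, Matrix.one_apply]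

theorem exT (k : Fin (n / 2)) (i : UIdx n) (h1 : i ≠ .inl (.inl k)) (h2 : i ≠ .inl (.inr k))
    (s c : F) (hc : H59.frob hF c + H59.frob hF s * s * (fdU hF n).M i i ∈ trZero hF) :
    ∃ g : Cfsg.SU n F q, (∀ x, (cdSU hF n).ρ g *ᵥ x = x + x (.inl (.inr k)) •
      (s • Pi.single i 1 + c • Pi.single (.inl (.inl k)) 1) -
      (H59.frob hF s * x (Sum.map Sum.swap id i)) • Pi.single (.inl (.inl k)) 1) ∧
      ∀ S : AddSubsemigroup (Fin (n / 2) → ℤ), (s ≠ 0 → hypWt _ _ i + Pi.single k 1 ∈ S) →
        (c ≠ 0 → Pi.single k 1 + Pi.single k 1 ∈ S) → g ∈ (cdSU hF n).US S := by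
  have ha : (fdU hF n).wt (.inl (.inr k)) ≠ 0 := neg_ne_zero.2 (single_ne_zero' k)
  have hb : (fdU hF n).wt (.inl (.inl k)) = -(fdU hF n).wt (.inl (.inr k)) := (neg_neg _).symm
  set w : UIdx n → F := Pi.single (.inl (.inr k)) 1 +
    (s • Pi.single i 1 + c • Pi.single (.inl (.inl k)) 1) with hw
  have w1 : w (.inl (.inr k)) = 1 := by simp [hw, h2.symm]
  have iso : (fdU hF n).sq (fdU hF n).M w w ∈ (fdU hF n).Λ := by
    change _ ∈ trZero hF
    convert hc using 1
    simp only [hw, FD.sq_add_left, FD.sq_add_right, FD.sq_smul_left, FD.sq_smul_right,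
      FD.sq_single]
    rcases i with (j | j) | j <;>
      simp_all [fdU, FD.ofBlocks, hypM, eq_comm]
    ring
  obtain ⟨g', e⟩ := exists_rhoGU hF n _ ((fdU hF n).eichM_isUnit ha hb w1)
    ((fdU hF n).eichM_isom ha hb w1 iso)
  obtain ⟨g, rfl⟩ := US_le_range_suGU hF n _ (CD.eich_mem (cdGU hF n) (u := g')
    (a := .inl (.inr k)) (by exact ha) (w := w) fun S hS => by
      change Supp _ (rhoGU hF n g' - 1) _
      rw [e]; exact (fdU hF n).eichM_supp ha hb w1 S hS)
  have e' : (cdSU hF n).ρ g = _ := e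
  refine ⟨g, fun x => ?_, fun S s1 s2 => ?_⟩
  · have : w - Pi.single (.inl (.inr k)) 1 - w (.inl (.inl k)) • Pi.single (.inl (.inl k)) 1 =
        s • Pi.single i 1 := by simp [hw, h1.symm]
    rw [e', FD.eichM_mulVec, this, FD.sq_smul_left, hU_single, hw, add_sub_cancel_left, fdU_hM]
    simp [fdU, FD.ofBlocks]
  · rw [CD.mem_US, e']
    refine (fdU hF n).eichM_supp ha hb w1 S fun j j1 j2 => ?_
    change hypWt _ _ j - -Pi.single k 1 ∈ S
    rw [sub_neg_eq_add]
    by_cases a : j = i
    · subst a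
      exact s1 (by simpa [hw, h1, h2] using j2)
    by_cases b : j = .inl (.inl k)
    · subst b
      exact s2 (by simpa [hw, a] using j2)
    simp [hw, a, b, j1] at j2

theorem eq_of_col {J κ G : Type*} [Fintype J] [DecidableEq J] [Fintype κ] [Group G] [Finite G]
    {D : CD F J κ G} {r : κ → ℤ} {c : J} (hc : D.wt c ⬝ᵥ (-r) = 1) {x y : G}
    (hx : x ∈ D.US (ray r)) (hy : y ∈ D.US (ray r))
    (h : D.ρ x *ᵥ Pi.single c 1 = D.ρ y *ᵥ Pi.single c 1) : x = y :=
  (inv_mul_eq_one.1 (CD.eq_one_of_fix hc (by rw [neg_neg]; exact mul_mem (inv_mem hy) hx)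
    (CD.eq_of_col_eq (c := 1) (by rw [one_smul, CD.act_mul, h, CD.act_inv_act])))).symm

theorem eq_comm_of {J κ G : Type*} [Fintype J] [DecidableEq J] [Fintype κ] [Group G]
    {D : CD F J κ G} {y g h : G}
    (e : ∀ x, D.ρ y *ᵥ (D.ρ h *ᵥ (D.ρ g *ᵥ x)) = D.ρ g *ᵥ (D.ρ h *ᵥ x)) : y = ⁅g, h⁆ := by
  have : y * (h * g) = g * h := D.inj (Matrix.ext_of_mulVec_single fun i => by
    simp only [CD.act_mul, e])
  rw [commutatorElement_def, ← this]
  group

theorem jobC2 (hD : H9.CK.JobCD) : H9.CK.JobC2 := by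
  intro p _ F _ _ _ n q hF
  have hs : (cdSU hF n).short := cdGU_short hF n
  have hP : (htSU hF n).ht = htFin (n / 2) 0 := congrArg (htFin _) (if_pos (cdGU_short hF n))
  refine H9.CK.HasC.quot ⟨lieSU hF n p, hD F (UIdx n) _ (n / 2) (cdSU hF n) (htSU hF n) 0
    (fdU hF n).wt_std (fdU hF n).wt_up hP (fun _ => rfl) (fun c => absurd hs c)
    fun _ k l hkl _ => ?_⟩
  have hne : k ≠ l := fun e => by rw [e] at hkl; omega
  have := k.2
  have := l.2
  have τ := trOne_spec hF
  have θθ := H59.frob_frob hF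
  have col : ∀ {r x i c}, x ∈ (cdSU hF n).US (ray r) → (cdSU hF n).ρ x i c ≠ (1 : Matrix _ _ F) i c →
      ∃ s : ℤ, 0 < s ∧ hypWt _ _ i - hypWt _ _ c = s • r := fun hx h => hx _ _ (sub_ne_zero.2 h)
  cases isEmpty_or_nonempty (Fin (n % 2)) with
  | inl hz =>
    refine .inr fun x hx => ?_
    set t := (cdSU hF n).ρ x (.inl (.inl k)) (.inl (.inr k))
    have e1 : (cdSU hF n).ρ x *ᵥ Pi.single (.inl (.inr k)) 1 =
        Pi.single (.inl (.inr k)) 1 + t • Pi.single (.inl (.inl k)) 1 := by
      funext i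
      rw [CD.col_apply]
      by_cases a : i = .inl (.inl k)
      · simp [a, t]
      have : (cdSU hF n).ρ x i (.inl (.inr k)) =
          (1 : Matrix (UIdx n) (UIdx n) F) i (.inl (.inr k)) := by
        by_contra e
        obtain ⟨s, s0, e⟩ := col hx e
        rcases i with (j | j) | j
        · simpa [show j ≠ k by simpa using a] using congrFun e j
        · have := congrFun e j
          by_cases b : j = k <;> simp [b] at this
          omega
        · exact hz.elim j
      simp [this, a, one_apply, Pi.single_apply]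
    have t0 : H59.frob hF t + t = 0 := by
      have := (cdSU hF n).iso_col x (.inl (.inr k)) (neg_ne_zero.2 (single_ne_zero' k))
      rw [e1] at this
      change (fdU hF n).sq _ _ _ ∈ trZero hF at this
      simp only [FD.sq_add_left, FD.sq_add_right, FD.sq_smul_left, FD.sq_smul_right,
        FD.sq_single] at this
      simpa [fdU, FD.ofBlocks, hypM, mem_trZero, θθ] using this
    obtain ⟨y, y1, y2⟩ := exT hF n k (.inl (.inl l)) (by simp [hne.symm]) (by simp) 0 t
      (by simpa [mem_trZero, θθ] using t0)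
    obtain ⟨g, g1, g2⟩ := exT hF n k (.inl (.inr l)) (by simp) (by simp [hne.symm])
      (trOne hF * t) 0 (by simp [fdU, FD.ofBlocks, hypM])
    obtain ⟨h, h1, h2⟩ := exT hF n k (.inl (.inl l)) (by simp [hne.symm]) (by simp)
      1 0 (by simp [fdU, FD.ofBlocks, hypM])
    rw [eq_of_col (c := .inl (.inr k)) (by change -Pi.single k 1 ⬝ᵥ _ = 1; simp) hx
      (y2 _ (absurd rfl) fun _ => ⟨2, by norm_num, (two_smul ..).symm⟩) (by simp [e1, y1]),
      eq_comm_of (D := cdSU hF n) (y := y) (g := g) (h := h) fun x => ?_, CD.Ht.grd_U, hP]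
    · refine Subgroup.commutator_mem_commutator (g2 _ (fun _ => ?_) (absurd rfl))
        (h2 _ (fun _ => ?_) (absurd rfl)) <;>
      simp only [mem_posS, map_add, hypWt_ll, hypWt_lr, map_neg, htFin_single] <;> omega
    · simp only [y1, g1, h1]
      simp [hne, hne.symm]
      match_scalars
      any_goals rfl
      linear_combination (-x (.inl (.inr k)) * t) * τ +
        (x (.inl (.inr k)) * H59.frob hF (trOne hF)) * t0
  | inr hz =>
    obtain ⟨z⟩ := hz
    refine .inl fun x hx => ?_
    set t := (cdSU hF n).ρ x (.inl (.inl k)) (.inl (.inr l))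
    have e1 : (cdSU hF n).ρ x *ᵥ Pi.single (.inl (.inr l)) 1 =
        Pi.single (.inl (.inr l)) 1 + t • Pi.single (.inl (.inl k)) 1 := by
      funext i
      rw [CD.col_apply]
      by_cases a : i = .inl (.inl k)
      · simp [a, t]
      have : (cdSU hF n).ρ x i (.inl (.inr l)) =
          (1 : Matrix (UIdx n) (UIdx n) F) i (.inl (.inr l)) := by
        by_contra e
        obtain ⟨s, s0, e⟩ := col hx e
        have := congrFun e k
        rcases i with (j | j) | j
        · simp [show k ≠ j by simpa [eq_comm] using a, hne] at this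
          omega
        · by_cases b : k = j
          · subst b
            simp [hne] at this
            omega
          · simp [b, hne] at this
            omega
        · simp [hne] at this
          omega
      simp [this, a, one_apply, Pi.single_apply]
    have Mz : (fdU hF n).M (.inr z) (.inr z) = trOne hF := by simp [fdU, FD.ofBlocks, hypM]
    obtain ⟨y, y1, y2⟩ := exT hF n l (.inl (.inl k)) (by simp [hne]) (by simp) t 0
      (by simp [fdU, FD.ofBlocks, hypM])
    obtain ⟨g, g1, g2⟩ := exT hF n k (.inr z) (by simp) (by simp) (-H59.frob hF t)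
      (-H59.frob hF (t * H59.frob hF t * trOne hF)) (by simp [Mz, θθ])
    obtain ⟨h, h1, h2⟩ := exT hF n l (.inr z) (by simp) (by simp) 1
      (-H59.frob hF (trOne hF)) (by simp [Mz, θθ])
    rw [eq_of_col (c := .inl (.inr l)) (by change -Pi.single l 1 ⬝ᵥ _ = 1; simp [hne]) hx
      (y2 _ (fun _ => self_mem_ray _) (absurd rfl)) (by simp [e1, y1, hne]),
      eq_comm_of (D := cdSU hF n) (y := y) (g := g) (h := h) fun x => ?_, CD.Ht.grd_U, hP]
    · refine Subgroup.commutator_mem_commutator (g2 _ (fun _ => ?_) fun _ => ?_)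
        (h2 _ (fun _ => ?_) fun _ => ?_) <;>
      simp only [mem_posS, map_add, hypWt_r, map_zero, htFin_single] <;> omega
    · simp only [y1, g1, h1]
      simp [θθ]
      match_scalars <;> ring

end H66.CKC
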