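/- CKS (S2193): condition (C) for the orthogonal groups with a non-zero anisotropic part. -/
import Cfsg.Agent.H9.CKASpec

set_option autoImplicit false
set_option linter.unusedSectionVars false

namespace H66.CKC
open Matrix QuadraticMap H54 H56
open scoped commutatorElement

variable {F J : Type} [Field F] [Fintype J] [DecidableEq J] {m : ℕ} {E : FD F J m}
  {Q : QuadraticForm F (J → F)} (h : E.IsOrth Q)
include h

theorem polar_wt {w : J → F} {j : J} (hw : polar Q w (Pi.single j 1) ≠ 0) :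
    ∃ i, w i ≠ 0 ∧ E.wt j = -E.wt i := by
  rw [← h.polar, FD.sq_eq_sum] at hw
  obtain ⟨i, -, hi⟩ := Finset.exists_ne_zero_of_sum_ne_zero hw
  obtain ⟨k, -, hk⟩ := Finset.exists_ne_zero_of_sum_ne_zero hi
  obtain ⟨h1, h2⟩ := mul_ne_zero_iff.1 hk
  obtain rfl : k = j := by by_contra c; simp [c] at h2
  obtain ⟨h3, h4⟩ := mul_ne_zero_iff.1 h1
  exact ⟨i, (map_ne_zero _).1 h3, eq_neg_of_add_eq_zero_right (E.hM_wt h4)⟩

theorem polar_single {i j : J} (hw : polar Q (Pi.single i 1) (Pi.single j 1) ≠ 0) :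
    E.wt j = -E.wt i := by
  obtain ⟨k, h1, h2⟩ := polar_wt h hw
  obtain rfl : k = i := by by_contra c; simp [c] at h1
  exact h2

theorem Q_single {a : J} (ha : E.wt a ≠ 0) : Q (Pi.single a 1) = 0 := by
  rw [← h.q, FD.sq_single, E.M_diag ha]

variable [Finite F] {q : (J → F) → F} (hq : ⇑Q = q) (hQ : Q.polarBilin.Nondegenerate)
  (hE : ¬ IsExc Q)

/-- An Eichler transformation as an element of `Ω`. -/
noncomputable def el (u w : J → F) : Cfsg.Omega F q :=
  (omegaEquiv Q hq).symm ⟨eich Q u w, eich_mem_commutator hQ hE u w⟩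

theorem el_act (u w x : J → F) : (h.cdΩ hq hQ hE).ρ (el hq hQ hE u w) *ᵥ x = eich Q u w x := by
  rw [h.cdΩ_ρ, ← coe_omegaEquiv, el, MulEquiv.apply_symm_apply]

theorem el_mem {a : J} (ha : E.wt a ≠ 0) {w : J → F} (hw : polar Q (Pi.single a 1) w = 0)
    {S : AddSubsemigroup (Fin m → ℤ)} (h1 : ∀ i, w i ≠ 0 → E.wt a + E.wt i ∈ S)
    (h2 : Q w ≠ 0 → E.wt a + E.wt a ∈ S) :
    el hq hQ hE (Pi.single a 1) w ∈ (h.cdΩ hq hQ hE).US S := by
  intro i j hij
  change E.wt i - E.wt j ∈ S
  have e := congrFun (el_act h hq hQ hE (Pi.single a 1) w (Pi.single j 1)) i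
  rw [CD.col_apply, eich_apply (Q_single h ha) hw] at e
  rw [Matrix.sub_apply, e, one_apply] at hij
  simp only [Pi.sub_apply, Pi.add_apply, Pi.smul_apply, smul_eq_mul, Pi.single_apply] at hij
  by_cases c1 : polar Q (Pi.single a 1) (Pi.single j 1) = 0
  · obtain rfl : i = a := by by_contra c; simp [c, c1] at hij
    obtain ⟨k, k1, k2⟩ := polar_wt h (w := w) (j := j) fun c => by simp [c, c1] at hij
    simpa [k2] using h1 k k1
  have c2 := polar_single h c1
  rw [c2, sub_neg_eq_add, add_comm]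
  by_cases c3 : w i = 0
  · obtain rfl : i = a := by by_contra c; simp [c, c3] at hij
    by_cases c4 : Q w = 0
    · obtain ⟨k, k1, k2⟩ := polar_wt h (w := w) (j := j) fun c => by simp [c, c3, c4] at hij
      rw [c2, neg_inj] at k2
      exact absurd c3 (E.wt_inj i k ha k2 ▸ k1)
    · exact h2 c4
  · exact h1 i c3

theorem cc (hD : H9.CK.JobCD) {z : J} (hz : E.wt z = 0) : H9.CK.CC (h.htΩ hq hQ hE).grd := by
  have : Finite (Cfsg.Omega F q) := Finite.of_equiv _ (omegaEquiv Q hq).symm.toEquiv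
  have hs : (h.cdΩ hq hQ hE).short := .inr ⟨z, hz⟩
  have hP : (h.htΩ hq hQ hE).ht = htFin m 0 := congrArg (htFin m) (if_pos hs)
  refine hD F J _ m _ _ 0 E.wt_std E.wt_up hP (fun _ => rfl) (fun c => absurd hs c)
    fun _ k l hkl _ => .inl fun x hx => ?_
  have hne : k ≠ l := fun e => by rw [e] at hkl; omega
  obtain ⟨a, ha⟩ := E.wt_up k
  obtain ⟨b, hb⟩ := E.wt_up l
  obtain ⟨c, hc⟩ := E.wt_neg b
  have a0 : E.wt a ≠ 0 := ha ▸ single_ne_zero' k
  have b0 : E.wt b ≠ 0 := hb ▸ single_ne_zero' l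
  have qa := Q_single h a0
  have qb := Q_single h b0
  have ab : polar Q (Pi.single a 1) (Pi.single b 1) = 0 := by
    by_contra e
    simpa [ha, hb, hne] using congrFun (polar_single h e) k
  have ac : polar Q (Pi.single a 1) (Pi.single c 1) = 0 := by
    by_contra e
    simpa [ha, hb, hc, hne] using congrFun (polar_single h e) k
  have bc : polar Q (Pi.single b 1) (Pi.single c 1) ≠ 0 := by
    rw [← h.polar, FD.sq_single]; exact E.hM_ne b0 hc
  have orth : ∀ i, E.wt i ≠ 0 → ∀ w : J → F, (∀ j, w j ≠ 0 → E.wt j = 0) →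
      polar Q (Pi.single i 1) w = 0 := fun i hi w hw => by
    by_contra e
    obtain ⟨j, j1, j2⟩ := polar_wt h (polar_comm Q w _ ▸ e)
    exact hi (by rw [j2, hw j j1, neg_zero])
  have memU : ∀ i (n : Fin m), E.wt i = Pi.single n 1 → ∀ w : J → F, (∀ j, w j ≠ 0 → E.wt j = 0) →
      el hq hQ hE (Pi.single i 1) w ∈ (h.htΩ hq hQ hE).grd.U := fun i n hi w hw => by
    have i0 : E.wt i ≠ 0 := hi ▸ single_ne_zero' n
    rw [CD.Ht.grd_U, hP]
    have := n.2
    exact el_mem h hq hQ hE i0 (orth i i0 w hw)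
      (fun j hj => by rw [hw j hj, add_zero, hi, mem_posS, htFin_single]; omega)
      fun _ => by rw [hi, mem_posS, map_add, htFin_single]; omega
  set t := (h.cdΩ hq hQ hE).ρ x a c / polar Q (Pi.single b 1) (Pi.single c 1) with ht
  have y1 : el hq hQ hE (Pi.single a 1) (t • Pi.single b 1) ∈
      (h.cdΩ hq hQ hE).US (ray (Pi.single k 1 + Pi.single l 1)) :=
    el_mem h hq hQ hE a0 (by simp [ab]) (fun i hi => by
      obtain rfl : i = b := by by_contra c; simp [c] at hi
      rw [ha, hb]; exact self_mem_ray _) fun e => absurd (by rw [Q_smul, qb, mul_zero]) e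
  have e1 : x = el hq hQ hE (Pi.single a 1) (t • Pi.single b 1) := by
    refine (inv_mul_eq_one.1 (CD.eq_one_of_fix (D := h.cdΩ hq hQ hE) (a := c)
      (r := -(Pi.single k 1 + Pi.single l 1)) ?_ (by rw [neg_neg]; exact mul_mem (inv_mem y1) hx)
      (CD.eq_of_col_eq (c := 1) ?_))).symm
    · change E.wt c ⬝ᵥ _ = 1
      simp [hc, hb, hne]
    · suffices H : (h.cdΩ hq hQ hE).ρ x *ᵥ Pi.single c 1 = (h.cdΩ hq hQ hE).ρ
          (el hq hQ hE (Pi.single a 1) (t • Pi.single b 1)) *ᵥ Pi.single c 1 by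
        rw [one_smul, CD.act_mul, H, CD.act_inv_act]
      rw [el_act, eich_apply_of_orth qa (by simp [ab]) ac, polar_smul_left,
        smul_eq_mul, ht, div_mul_cancel₀ _ bc]
      funext i
      rw [CD.col_apply]
      have hac : a ≠ c := by
        rintro rfl
        simpa [ha, hb, hne] using congrFun hc k
      by_cases i1 : i = a
      · simp [i1, hac]
      have : ((h.cdΩ hq hQ hE).ρ x - 1) i c = 0 := by
        by_contra e
        obtain ⟨s, s0, e⟩ := hx i c e
        change E.wt i - E.wt c = _ at e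
        rw [hc, hb, sub_neg_eq_add] at e
        have e2 := congrFun e k
        simp only [Pi.add_apply, Pi.smul_apply, Pi.single_eq_same, Pi.single_eq_of_ne hne,
          add_zero, smul_eq_mul, mul_one] at e2
        refine i1 (E.wt_inj a i a0 ?_).symm
        rcases E.wt_std i with e3 | ⟨n, e3 | e3⟩ <;> rw [e3] at e2 ⊢
        · simp at e2; omega
        · obtain rfl : k = n := by by_contra c; simp [c] at e2; omega
          exact ha
        · by_cases c : k = n <;> simp [c] at e2 <;> omega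
      rw [Matrix.sub_apply, sub_eq_zero] at this
      simp [this, i1, one_apply, Pi.single_apply]
  obtain ⟨v, hv⟩ := exists_polar_eq_one hQ (x := Pi.single z 1) (by simp)
  let w : J → F := fun j => if E.wt j = 0 then t * v j else 0
  have w0 : ∀ j, w j ≠ 0 → E.wt j = 0 := fun j hj => by by_contra c; simp [w, c] at hj
  have z0 : ∀ j, (Pi.single z 1 : J → F) j ≠ 0 → E.wt j = 0 := fun j hj => by
    obtain rfl : j = z := by by_contra c; simp [c] at hj
    exact hz
  have wz : polar Q w (Pi.single z 1) = t := by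
    rw [polar_comm, ← h.polar, FD.sq_single_left, ← mul_one t, ← hv, ← h.polar, FD.sq_single_left,
      Finset.mul_sum]
    refine Finset.sum_congr rfl fun j _ => ?_
    by_cases c : E.hM z j = 0
    · simp [c]
    · have := E.hM_wt c
      rw [hz, zero_add] at this
      simp only [w, if_pos this]
      ring
  have e2 : el hq hQ hE (Pi.single a 1) (t • Pi.single b 1) =
      ⁅el hq hQ hE (Pi.single b 1) w, el hq hQ hE (Pi.single a 1) (Pi.single z 1)⁆ := by
    refine (omegaEquiv Q hq).injective (Subtype.ext ?_)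
    simp only [commutatorElement_def, map_mul, map_inv, el, MulEquiv.apply_symm_apply,
      Subgroup.coe_mul, Subgroup.coe_inv]
    rw [conj_eich, eich_apply_of_orth_orth (polar_comm Q _ _ ▸ ab)
      (polar_comm Q _ _ ▸ orth a a0 w w0), eich_apply_of_orth qb (orth b b0 w w0) (orth b b0 _ z0),
      wz, add_comm, eich_add qa (by simp [ab]) (orth a a0 _ z0), mul_inv_cancel_right]
  rw [e1, e2]
  exact Subgroup.commutator_mem_commutator (memU b l hb w w0) (memU a k ha _ z0)

omit h [Finite F] in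
theorem jobC3 (hD : H9.CK.JobCD) : H9.CK.JobC3 := by
  intro p _ F _ _ _ m
  refine ⟨fun ho => ?_, fun a b hab => ?_⟩
  · have h2 := H58.two_ne_zero_of_odd_card ho
    have : Finite (Cfsg.Omega F (Cfsg.quadFormOdd m F)) :=
      Finite.of_equiv _ (omegaEquiv _ (H58.coe_qOdd m F)).symm.toEquiv
    exact H9.CK.HasC.quot ⟨lieOmegaOdd F m h2 p, cc (isOrth_odd F m) _ _ _ hD (z := .inl ()) rfl⟩
  · have : Finite (Cfsg.Omega F (Cfsg.quadFormMinus m F a b)) :=
      Finite.of_equiv _ (omegaEquiv _ (H58.coe_qMinus m F a b)).symm.toEquiv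
    exact H9.CK.HasC.quot ⟨lieOmegaMinus m hab p, cc (isOrth_minus m hab) _ _ _ hD (z := .inr 0) rfl⟩

end H66.CKC
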