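/- CKS (S2193), orthogonal and unitary chapter: lifting, fixed-point-free classes, the Heisenberg
bound, the long root elements. -/
import Cfsg.Agent.H66.CKOSpec

set_option autoImplicit false
set_option linter.unusedSectionVars false

namespace H66.CK
open Module MulAction QuadraticMap H56 H60 Finset

theorem lift {p : ℕ} [Fact p.Prime] {G Ω Γ : Type} [Group G] [Finite G] [MulAction G Ω] [Finite Ω]
    [Group Γ] [Finite Γ] (e : G ≃* Γ ⧸ Subgroup.center Γ) (h : H32.CK.CB p G Ω) :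
    ∃ _ : MulAction Γ Ω, LB p Γ Ω := by
  let π : Γ →* G := e.symm.toMonoidHom.comp (QuotientGroup.mk' _)
  have hπ : Function.Surjective π := e.symm.surjective.comp (QuotientGroup.mk'_surjective _)
  have hk : ∀ g, π g = 1 → g ∈ Subgroup.center Γ := fun g hg =>
    (QuotientGroup.eq_one_iff g).1 (e.symm.injective (hg.trans (map_one _).symm))
  let _ : MulAction Γ Ω := MulAction.compHom Ω π
  refine ⟨inferInstance, is_two_pretransitive_iff.2 fun {a b c d} h1 h2 => ?_, h.nontrivial,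
    fun g hg => hk g (h.eq_one hg), fun U a b => ?_⟩
  · obtain ⟨g, hg⟩ := h.ex h1 h2
    obtain ⟨g, rfl⟩ := hπ g
    exact ⟨g, hg⟩
  · obtain ⟨g, hg, hab⟩ := h.bt (U.mapSurjective hπ) a b
    obtain ⟨g, rfl⟩ := hπ g
    refine ⟨g, Subgroup.mem_normalizer_fintype fun u hu => ?_, hab⟩
    obtain ⟨u', hu', e1⟩ := (Subgroup.mem_normalizer_iff.1 hg (π u)).1 ⟨u, hu, rfl⟩
    have h1 : u'⁻¹ * (g * u * g⁻¹) ∈ Subgroup.center Γ := hk _ (by
      rw [map_mul, map_inv, e1, map_mul, map_mul, map_inv, inv_mul_cancel])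
    have h2 : g * u * g⁻¹ ∈ Subgroup.normalizer ((U : Subgroup Γ) : Set Γ) := by
      simpa using mul_mem (Subgroup.le_normalizer hu') (Subgroup.center_le_normalizer _ h1)
    have h3 := (U.2.map (MulAut.conj g).toMonoidHom).inf_normalizer_sylow U
    exact (h3.le ⟨⟨u, hu, rfl⟩, h2⟩).2

section cls
variable {p : ℕ} {A : Type} [Group A] {Γ : Subgroup A} [Finite Γ] {Ω : Type} [MulAction Γ Ω]
  [Finite Ω]

theorem LB.cls (h : LB p Γ Ω) (C : Set A) (hΓ : C ⊆ Γ)
    (hC : ∀ g ∈ Γ, ∀ c ∈ C, g * c * g⁻¹ ∈ C) (hf : ∀ c ∈ C, ∀ a : Ω, c ∉ St Γ a) :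
    Nat.card Ω - 1 ∣ C.ncard := by
  classical
  have := h.nt
  have := Fintype.ofFinite Ω
  obtain ⟨a, b, hb⟩ := exists_pair_ne Ω
  have e : C ≃ Σ d : {d : Ω // d ≠ a}, {c : Γ // c.1 ∈ C ∧ c • a = d} :=
    { toFun := fun c => ⟨⟨(⟨c, hΓ c.2⟩ : Γ) • a, fun e => hf c c.2 a (mem_St.2 ⟨_, e⟩)⟩,
        ⟨c, hΓ c.2⟩, c.2, rfl⟩
      invFun := fun x => ⟨x.2.1, x.2.2.1⟩
      left_inv := fun _ => rfl
      right_inv := by
        rintro ⟨⟨d, hd⟩, c, h1, h2⟩
        dsimp only at h2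
        subst h2
        rfl }
  have k : ∀ d : {d : Ω // d ≠ a}, Nat.card {c : Γ // c.1 ∈ C ∧ c • a = d} =
      Nat.card {c : Γ // c.1 ∈ C ∧ c • a = b} := fun d => by
    obtain ⟨g, g1, g2⟩ := is_two_pretransitive_iff.1 h.two d.2.symm hb
    have g3 : g⁻¹ • a = a := by rw [inv_smul_eq_iff, g1]
    refine Nat.card_congr
      { toFun := fun c => ⟨g * c * g⁻¹, hC g g.2 _ c.2.1, by rw [mul_smul, mul_smul, g3, c.2.2, g2]⟩
        invFun := fun c => ⟨g⁻¹ * c * g⁻¹⁻¹, hC _ g⁻¹.2 _ c.2.1, by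
          rw [mul_smul, mul_smul, inv_inv, g1, c.2.2, ← g2, inv_smul_smul]⟩
        left_inv := fun c => Subtype.ext (by simp [mul_assoc])
        right_inv := fun c => Subtype.ext (by simp [mul_assoc]) }
  rw [← Nat.card_coe_set_eq, Nat.card_congr e, Nat.card_sigma, sum_congr rfl fun d _ => k d,
    sum_const, card_univ, Fintype.card_subtype_compl, Fintype.card_subtype_eq,
    Nat.card_eq_fintype_card]
  exact Dvd.intro _ rfl

theorem LB.not_le (h : LB p Γ Ω) (a : Ω) : ¬ Γ ≤ St Γ a := fun hle => by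
  have := h.nt
  have := h.pre
  obtain ⟨b, hb⟩ := exists_ne a
  obtain ⟨g, hg⟩ := exists_smul_eq Γ a b
  exact hb (hg.symm.trans (coe_mem_St.1 (hle g.2)))

/-- the centre of a Sylow subgroup meets all point stabilisers alike -/
theorem LB.card_eq (h : LB p Γ Ω) (U : Sylow p Γ) {Z : Subgroup A} (hΓ : Z ≤ Γ)
    (hZ : ∀ g : Γ, g.1 ∈ Z ↔ g ∈ U ∧ ∀ u ∈ U, g * u = u * g) (a b : Ω) :
    Nat.card ↥(Z ⊓ St Γ a) = Nat.card ↥(Z ⊓ St Γ b) := by
  have : Finite Z := Finite.of_injective _ (Subgroup.inclusion_injective hΓ)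
  have fin : ∀ a : Ω, Finite ↥(Z ⊓ St Γ a) := fun a =>
    Finite.of_injective _ (Subgroup.inclusion_injective inf_le_left)
  have key : ∀ a b : Ω, Nat.card ↥(Z ⊓ St Γ a) ≤ Nat.card ↥(Z ⊓ St Γ b) := fun a b => by
    obtain ⟨g, hg, rfl⟩ := h.bt U a b
    refine Nat.card_le_card_of_injective (fun z => ⟨g.1 * z.1 * g.1⁻¹, ?_,
      (conj_mem_St g).2 z.2.2⟩) fun z z' e => Subtype.ext (by simpa using congrArg Subtype.val e)
    obtain ⟨h1, h2⟩ := (hZ ⟨z.1, hΓ z.2.1⟩).1 z.2.1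
    refine (hZ (g * ⟨z.1, hΓ z.2.1⟩ * g⁻¹)).2 ⟨(Subgroup.mem_normalizer_iff.1 hg _).1 h1,
      fun u hu => ?_⟩
    have := h2 _ ((Subgroup.mem_normalizer_iff''.1 hg u).1 hu)
    calc _ = g * (⟨z.1, hΓ z.2.1⟩ * (g⁻¹ * u * g)) * g⁻¹ := by group
      _ = _ := by rw [this]; group
  exact le_antisymm (key a b) (key b a)

end cls

theorem jobHZ : JobHZ := by
  intro F V β _ _ _ _ _ Q hQ x y x' y' h M W hW hR φ S hS hφ
  classical
  have : Finite V := Module.finite_of_finite F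
  let _ := Fintype.ofFinite V
  have hY : Nat.card (h.Yof M) ≤ Fintype.card F ^ (finrank F V - 4) := by
    have h1 := H26.card_mul_le_of_orth (H26.bet Q) _ hR ((H26.fU Q x y x' y').toAddSubgroup.prod
      (H26.fU Q x y x' y').toAddSubgroup) (h.Yof M) (h.Yof M) (fun v hv => ⟨hv.1, hv.2.1⟩)
      (fun v hv => ⟨hv.1, hv.2.1⟩) ?_ fun v hv v' hv' => h.bet_mem_Ro hv hv'
    · rw [Nat.card_congr (AddSubgroup.prodEquiv _ _).toEquiv, Nat.card_prod] at h1
      have h2 : finrank F (H26.fU Q x y x' y') ≤ finrank F V - 4 := by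
        have a1 := H26.finrank_inf_ort (W := ⊤) (w := x') trivial (h.hx.ef ▸ one_ne_zero)
        have a2 := H26.finrank_inf_ort (Q := Q) (W := ⊤ ⊓ ort Q x) (a := x') (w := x)
          ⟨trivial, h.hx.ee⟩ (h.hx.fe ▸ one_ne_zero)
        have a3 := H26.finrank_inf_ort (Q := Q) (W := ⊤ ⊓ ort Q x ⊓ ort Q x') (a := y) (w := y')
          ⟨⟨trivial, h.xy'⟩, h.x'y'⟩ (h.hy.ef ▸ one_ne_zero)
        have a4 := H26.finrank_inf_ort (Q := Q) (W := ⊤ ⊓ ort Q x ⊓ ort Q x' ⊓ ort Q y) (a := y')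
          (w := y) ⟨⟨⟨trivial, h.xy⟩, h.x'y⟩, h.hy.ee⟩ (h.hy.fe ▸ one_ne_zero)
        rw [finrank_top] at a1
        unfold H26.fU
        omega
      refine le_trans (Nat.mul_self_le_mul_self_iff.1 h1) ?_
      exact (H26.card_submodule _).le.trans (Nat.pow_le_pow_right Fintype.card_pos h2)
    · rintro ⟨y1, y2⟩ hy h0 c
      by_cases h1 : y1 = 0
      · have h2 : y2 ≠ 0 := fun h2 => h0 (by rw [h1, h2]; rfl)
        obtain ⟨z, hz, hz1⟩ := (h.nondeg hQ).exists_polar_one hy.2 h2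
        refine ⟨(-c • z, 0), ⟨Submodule.smul_mem _ _ hz, Submodule.zero_mem _⟩, ?_⟩
        simp [H26.bet_apply, polar_comm Q z, hz1]
      · obtain ⟨z, hz, hz1⟩ := (h.nondeg hQ).exists_polar_one hy.1 h1
        refine ⟨(0, c • z), ⟨Submodule.zero_mem _, Submodule.smul_mem _ _ hz⟩, ?_⟩
        simp [H26.bet_apply, polar_comm Q z, hz1]
  refine le_trans ?_ (Nat.mul_le_mul_left _ (Nat.mul_le_mul_right _ hY))
  let T : Finset ((V × V) × F) := (univ.filter (· ∈ W) ×ˢ univ.filter (· ∈ W)) ×ˢ univ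
  have hT : #T = Fintype.card F ^ (2 * finrank F W + 1) := by
    rw [card_product, card_product, H26.card_filter_submodule, card_univ]; ring
  have hmem : ∀ τ ∈ T, τ.1.1 ∈ W ∧ τ.1.2 ∈ W := by
    intro τ hτ; simpa [T] using hτ
  rw [← hT, mul_comm]
  refine card_le_mul_card_image_of_maps_to (f := fun τ => φ τ.1 τ.2)
    (fun τ hτ => hS _ (hmem τ hτ).1 (hmem τ hτ).2 _) _ fun b _ => ?_
  rcases (T.filter fun τ => φ τ.1 τ.2 = b).eq_empty_or_nonempty with h0 | ⟨τ0, hτ0⟩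
  · rw [h0]; exact Nat.zero_le _
  obtain ⟨hτ0, hb⟩ := mem_filter.1 hτ0
  have hL0 := H26.Frm.inL (hW (hmem _ hτ0).1) (hW (hmem _ hτ0).2)
  let c : V × V → F := fun v => if hv : ∃ t, H26.ee Q x y v t ∈ M then hv.choose else 0
  rw [← H26.card_filter_mem, ← H26.card_filter_mem, ← card_product]
  refine card_le_card_of_injOn (fun τ => (-τ0.1 + τ.1, -τ0.2 + polar Q τ0.1.2 τ0.1.1 + τ.2 +
    polar Q (-τ0.1).2 τ.1.1 - c (-τ0.1 + τ.1))) ?_ ?_
  · intro τ hτ
    obtain ⟨hτ, hb'⟩ := mem_filter.1 hτ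
    have hL := H26.Frm.inL (hW (hmem _ hτ).1) (hW (hmem _ hτ).2)
    have h1 := hφ _ _ (hmem _ hτ0).1 (hmem _ hτ0).2 (hmem _ hτ).1 (hmem _ hτ).2 _ _
      (hb.trans hb'.symm)
    rw [H26.ee_inv h.hx.qe h.hy.qe h.xy hL0,
      H26.ee_mul h.hx.qe h.hy.qe h.xy (by simpa [H26.InL] using hL0) hL] at h1
    have m1 := hW (add_mem (neg_mem (hmem _ hτ0).1) (hmem _ hτ).1)
    have m2 := hW (add_mem (neg_mem (hmem _ hτ0).2) (hmem _ hτ).2)
    have hex : ∃ t, H26.ee Q x y (-τ0.1 + τ.1) t ∈ M := ⟨_, h1⟩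
    simp only [coe_product, coe_filter, mem_univ, true_and, Set.mem_prod, Set.mem_ofPred_eq]
    refine ⟨⟨m1, m2, hex⟩, h.sub_mem_Ro (v := -τ0.1 + τ.1) (H26.Frm.inL m1 m2) h1 ?_⟩
    simp only [c, dif_pos hex]
    exact hex.choose_spec
  · intro τ _ τ' _ he
    simp only [Prod.mk.injEq, add_right_inj] at he
    refine Prod.ext he.1 ?_
    have := he.2
    rw [he.1] at this
    linear_combination this

/-- The lemma on lines. -/
theorem lines_F {F : Type} [Field F] [Fintype F] (B : AddSubgroup (F × F)) (ρ : ℕ)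
    (h : ∀ w : F × F, w ≠ 0 → Nat.card {t : F // t • w ∈ B} = ρ) :
    ρ = 1 ∨ ρ = Fintype.card F := by
  classical
  obtain ⟨p, hp0⟩ := CharP.exists F
  obtain ⟨f, hp, hf⟩ := FiniteField.card F p
  have h1 : ρ ∣ p ^ (f : ℕ) := by
    rw [← h (1, 0) (by simp), ← hf, ← Nat.card_eq_fintype_card]
    exact (B.comap (LinearMap.toSpanSingleton F _ ((1 : F), (0 : F))).toAddMonoidHom
      ).card_addSubgroup_dvd_card
  have h2 : Nat.card B ∣ p ^ (2 * (f : ℕ)) := by
    rw [pow_mul', ← hf, pow_two, ← Nat.card_eq_fintype_card, ← Nat.card_prod]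
    exact B.card_addSubgroup_dvd_card
  obtain ⟨j, hj, rfl⟩ := (Nat.dvd_prime_pow hp).1 h1
  obtain ⟨m, -, hm⟩ := (Nat.dvd_prime_pow hp).1 h2
  rcases hj.eq_or_lt with rfl | hj
  · exact .inr hf.symm
  have e : {b : B // b ≠ 0} ≃
      Σ i : Option F, {t : {t : F // t • (i.elim (0, 1) fun c => (1, c) : F × F) ∈ B} // t.1 ≠ 0} := by
    refine (Equiv.ofBijective (fun z => ⟨⟨_, z.2.1.2⟩, fun e => z.2.2 ((smul_eq_zero.1
      (congrArg Subtype.val e)).resolve_right (by cases z.1 <;> simp))⟩) ⟨?_, ?_⟩).symm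
    · rintro ⟨_ | c, ⟨t, h1⟩, ht⟩ ⟨_ | c', ⟨t', h1'⟩, ht'⟩ e <;>
        simp only [Option.elim, Prod.smul_mk, smul_eq_mul, mul_zero, mul_one, Subtype.mk.injEq,
          Prod.mk.injEq, true_and] at e
      · subst e; rfl
      · exact absurd e.1.symm ht'
      · exact absurd e.1 ht
      · obtain ⟨rfl, e⟩ := e
        obtain rfl := mul_left_cancel₀ ht e
        rfl
    · rintro ⟨⟨⟨s, t⟩, hb⟩, h0⟩
      by_cases hs : s = 0
      · subst hs
        exact ⟨⟨none, ⟨t, by simpa using hb⟩, fun e => h0 (by simp_all)⟩, by simp⟩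
      · exact ⟨⟨some (t / s), ⟨s, by simpa [mul_div_cancel₀ _ hs] using hb⟩, hs⟩, by
          simp [mul_div_cancel₀ _ hs]⟩
  have c1 : Nat.card {b : B // b ≠ 0} = p ^ m - 1 := by
    rw [← hm, Nat.card_eq_fintype_card, Fintype.card_subtype_compl, Fintype.card_subtype_eq,
      Nat.card_eq_fintype_card]
  have c2 : ∀ w : F × F, w ≠ 0 → Nat.card {t : {t : F // t • w ∈ B} // t.1 ≠ 0} = p ^ j - 1 := by
    intro w hw
    have e2 : {t : {t : F // t • w ∈ B} // t.1 ≠ 0} ≃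
        {t : {t : F // t • w ∈ B} // ¬ t = ⟨0, by simp⟩} := Equiv.subtypeEquivRight
      fun t => not_congr ⟨fun e => Subtype.ext e, fun e => congrArg Subtype.val e⟩
    rw [← h w hw, Nat.card_congr e2, Nat.card_eq_fintype_card, Fintype.card_subtype_compl,
      Fintype.card_subtype_eq, Nat.card_eq_fintype_card]
  rw [Nat.card_congr e, Nat.card_sigma, sum_congr rfl fun i _ => c2 _ (by cases i <;> simp),
    sum_const, card_univ, Fintype.card_option, hf, smul_eq_mul] at c1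
  rw [H32.CK.lines_arith hp hj c1.symm]
  exact .inl rfl

theorem jobO1 : JobO1 := by
  intro p _ F V Ω _ _ _ _ _ _ Q _ _ hQ h7 h a x y0 hx hy0 hxy0 hm
  have : Finite V := Module.finite_of_finite F
  by_contra hne
  have hx0 : x ≠ 0 := by rintro rfl; exact hne (eich_zero_left _)
  obtain ⟨f, H⟩ := exists_isHyp hQ hx0 hx
  have hU := H.nondeg_hperp hQ
  have hd := H.finrank_hperp
  obtain ⟨y, hy, hyU, e0⟩ : ∃ y, Q y = 0 ∧ y ∈ hperp Q x f ∧ eich Q x y0 = eich Q x y :=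
    ⟨y0 + (-polar Q f y0) • x, by simp [Q_add, Q_smul, hx, hy0, pc hxy0], by
      simp [mem_hperp, hxy0, H.ee, H.fe], (eich_add_smul_self _ hx hxy0).symm⟩
  rw [e0] at hm hne
  have hy0 : y ≠ 0 := by rintro rfl; exact hne (eich_zero _)
  have ind : ∀ w ∈ hperp Q x f, w ≠ 0 → LinearIndependent F ![x, w] := fun w hw h0 =>
    ind_of_ne hx0 fun c hc => h0 (by
      have := (mem_hperp.1 hw).2
      rw [hc, polar_smul_right, H.fe, smul_eq_mul, mul_one] at this
      rw [hc, this, zero_smul])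
  have c1 : ∀ w ∈ hperp Q x f, w ≠ 0 → Q w = 0 → ∀ a b : Ω,
      Nat.card {t : F // eich Q x (t • w) ∈ St (EG Q) a} =
        Nat.card {t : F // eich Q x (t • w) ∈ St (EG Q) b} := by
    intro w hw h0 hQw
    have hL := isTL_span (ind w hw h0) hx hQw (mem_hperp.1 hw).1
    obtain ⟨U, hU⟩ := (isSylCen_iff hQ (by omega) (p := p) (le_refl (EG Q)) _).2 ⟨_, hL, rfl⟩
    have k : ∀ a : Ω, Nat.card {t : F // eich Q x (t • w) ∈ St (EG Q) a} =
        Nat.card ↥(XG Q (Submodule.span F {x, w}) ⊓ St (EG Q) a) := fun a =>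
      Nat.card_congr (Equiv.ofBijective (fun t => ⟨eich Q x (t.1 • w), eich_mem_XG
        (left_mem_span_pair x w) (Submodule.smul_mem _ _ (right_mem_span_pair x w)), t.2⟩)
        ⟨fun t t' e => ?_, fun z => ?_⟩)
    · exact fun a b => by rw [k, k, h.card_eq U (hL.XG_le_EG hQ) hU a b]
    · obtain ⟨c, hc⟩ := exists_smul_of_eich_eq hQ hx0 hx (by simp [(mem_hperp.1 hw).1]) (by simp [(mem_hperp.1 hw).1])
        (congrArg Subtype.val e)
      have := (LinearIndependent.pair_iff.1 (ind w hw h0) (-c) (t.1 - t'.1) (by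
        rw [sub_smul, hc]; simp)).2
      exact Subtype.ext (sub_eq_zero.1 this)
    · obtain ⟨v, hv, e⟩ := hL.exists_eq_eich hQ (left_mem_span_pair x w) hx0 z.2.1
      obtain ⟨s, t, rfl⟩ := Submodule.mem_span_pair.1 hv
      rw [add_comm, eich_add_smul_self _ hx (by simp [(mem_hperp.1 hw).1])] at e
      exact ⟨⟨t, e ▸ z.2.2⟩, Subtype.ext e.symm⟩
  obtain ⟨z, hz, hQz, hzy⟩ := exists_sing_not_mem_of_finrank (Q := Q) (hperp Q x f ⊓ ort Q y)
    (Submodule.span F {y}) (by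
      have := finrank_le_inf_ort (Q := Q) (hperp Q x f) y
      have := finrank_span_singleton_le (F := F) y
      omega)
  let B : AddSubgroup (F × F) :=
    { carrier := {w | eich Q x (w.1 • y + w.2 • z) ∈ St (EG Q) a}
      zero_mem' := by simp
      add_mem' := fun {u v} hu hv => by
        have := (St (EG Q) a).mul_mem hu hv
        rw [← eich_add hx (by simp [(mem_hperp.1 hyU).1, (mem_hperp.1 hz.1).1]) (by simp [(mem_hperp.1 hyU).1, (mem_hperp.1 hz.1).1])] at this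
        simpa only [Set.mem_ofPred_eq, Prod.fst_add, Prod.snd_add, add_smul, add_add_add_comm]
          using this
      neg_mem' := fun {u} hu => by
        have := (St (EG Q) a).inv_mem hu
        rw [← eich_neg] at this
        simpa only [Set.mem_ofPred_eq, Prod.fst_neg, Prod.snd_neg, neg_smul, neg_add] using this }
  rcases lines_F B (Nat.card {t : F // eich Q x (t • y) ∈ St (EG Q) a}) (fun w hw => by
    have m : w.1 • y + w.2 • z ∈ hperp Q x f :=
      add_mem (Submodule.smul_mem _ _ hyU) (Submodule.smul_mem _ _ hz.1)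
    have n0 : w.1 • y + w.2 • z ≠ 0 := fun e => hw (by
      have h2 : w.2 = 0 := by
        by_contra h2
        refine hzy (Submodule.mem_span_singleton.2 ⟨-(w.1 / w.2), ?_⟩)
        rw [← inv_smul_smul₀ h2 z, eq_neg_of_add_eq_zero_right e, smul_neg, smul_smul, neg_smul,
          div_eq_inv_mul]
      rw [h2, zero_smul, add_zero, smul_eq_zero, or_iff_left hy0] at e
      exact Prod.ext e h2)
    have q0 : Q (w.1 • y + w.2 • z) = 0 := by simp [Q_add, Q_smul, hy, hQz, mem_ort.1 hz.2]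
    obtain ⟨g, hg, e⟩ := exists_EOin_apply_eq hQ hU (by omega) hyU m hy0 n0 (hy.trans q0.symm)
    have gx : g x = x := EOin_le_fixer _ hg x fun u hu => pc (mem_hperp.1 hu).1
    let g' : EG Q := ⟨g, EOin_mono (Set.subset_univ _) hg⟩
    refine Eq.trans ?_ ((c1 _ m n0 q0 a (g' • a)).trans ?_)
    · exact Nat.card_congr (Equiv.subtypeEquivRight fun t => by
        simp only [B, AddSubgroup.mem_mk, AddSubmonoid.mem_mk, AddSubsemigroup.mem_mk,
          Set.mem_ofPred_eq, Prod.smul_fst, Prod.smul_snd, smul_eq_mul, mul_smul, smul_add])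
    · exact Nat.card_congr (Equiv.subtypeEquivRight fun t => by
        rw [← conj_mem_St g' (a := a), conj_eich, map_smul, gx, e])) with r | r
  · obtain ⟨t, ht⟩ := Nat.card_eq_one_iff_exists.1 r
    exact zero_ne_one (congrArg Subtype.val ((ht ⟨0, by simp⟩).trans
      (ht ⟨1, by simpa using hm⟩).symm))
  · have all : ∀ b : Ω, eich Q x y ∈ St (EG Q) b := fun b => by
      rw [c1 y hyU hy0 hy a b, ← Nat.card_eq_fintype_card] at r
      obtain ⟨t, ht⟩ := ((Nat.bijective_iff_injective_and_card _).2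
        ⟨Subtype.val_injective, r⟩).2 1
      simpa [ht] using t.2
    rcases (mem_center_iff_of_EG_le hQ (by omega) ⟨x, hx0, hx⟩ le_rfl _).1
      (h.ker ⟨_, eich_mem_EG x y⟩ fun b => coe_mem_St.1 (all b)) with e | e
    · exact hne e
    · have e1 := congrArg (fun g : O Q => g x) e
      simp only [eich_apply_self hx (mem_hperp.1 hyU).1, O.negOne_apply] at e1
      have : Nontrivial V := ⟨x, 0, hx0⟩
      refine hne (e.trans (O.negOne_eq_one_iff.2 ?_))
      exact (smul_eq_zero.1 (by rw [two_smul]; exact add_eq_zero_iff_eq_neg.2 e1)).resolve_right hx0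

end H66.CK
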