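/- CKS (S2193): the orthogonal groups. -/
import Cfsg.Agent.H66.CKOGen

set_option autoImplicit false
set_option linter.unusedSectionVars false

namespace H66.CK
open Module MulAction QuadraticMap H56 H60 Finset

theorem key {n r M T : ℤ} (hM : M ∣ n) (hT : M ∣ T) (h0 : 0 < r) (hr : r < M) (hn : 1 < n)
    (h1 : 1 < T) (hd : n - 1 ∣ (T - 1) * r) : n = T ∨ (n - 1) * (r + M) ≤ (T - 1) * r := by
  obtain ⟨s, hs⟩ := hd
  have hs0 : 0 < s := lt_of_mul_lt_mul_left (a := n - 1) (by rw [← hs]; nlinarith) (by omega)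
  obtain ⟨t, ht⟩ : M ∣ s - r := by
    rw [show s - r = n * s - T * r by linear_combination hs]
    exact (hM.mul_right _).sub (hT.mul_right _)
  have ht0 : -1 < t := by nlinarith
  rcases (show t = 0 ∨ 1 ≤ t by omega) with rfl | h
  · obtain rfl : s = r := by linarith
    exact .inl (by have := mul_right_cancel₀ h0.ne' hs; omega)
  · exact .inr (hs ▸ mul_le_mul_of_nonneg_left (by nlinarith) (by omega))

theorem key_le {n r M T : ℤ} (hM : M ∣ n) (hT : M ∣ T) (h0 : 0 < r) (hr : r < M) (hn : 1 < n)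
    (h1 : 1 < T) (hd : n - 1 ∣ (T - 1) * r) : n ≤ T := by
  rcases key hM hT h0 hr hn h1 hd with h | h
  · exact h.le
  · nlinarith

theorem geo (q : ℤ) (k : ℕ) : ∃ s, (q ^ 2 - 1) * s = q ^ (2 * k) - 1 := by
  obtain ⟨s, hs⟩ := sub_dvd_pow_sub_pow (q ^ 2) 1 k
  exact ⟨s, by rw [← hs, one_pow, pow_mul]⟩

variable {p : ℕ} [hp : Fact p.Prime] {F V Ω : Type} [Field F] [Fintype F] [CharP F p]
  [AddCommGroup V] [Module F V] [FiniteDimensional F V] {Q : QuadraticForm F V} [Finite Ω]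
  [MulAction (EG Q) Ω] (hQ : Q.polarBilin.Nondegenerate) (h7 : 7 ≤ finrank F V)
include hQ h7

include hp in
theorem O_dvd (hR : RF Q Ω) : Fintype.card F ^ (finrank F V - 3) ∣ Nat.card Ω := by
  classical
  obtain ⟨f, -, hf⟩ := FiniteField.card F p
  obtain ⟨x, -, hx0, hx⟩ := exists_sing (Q := Q) ⊤ (by rw [finrank_top]; omega)
  obtain ⟨y, hxy, hy, hi⟩ := exists_sing_not_mem_of_finrank (Q := Q) (⊤ ⊓ ort Q x)
    (Submodule.span F {x}) (by
      have := finrank_le_inf_ort (Q := Q) ⊤ x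
      have := finrank_span_singleton_le (F := F) x
      rw [finrank_top] at *
      omega)
  have hT : H26.TSP Q x y := ⟨hx, hy, hxy.2, hx0, fun c e =>
    hi (Submodule.mem_span_singleton.2 ⟨c, e.symm⟩)⟩
  obtain ⟨x', y', h⟩ := hT.exists_frm hQ
  have hL := isTL_span (ind_of_ne hx0 hT.ind) hx hy hT.xy
  rw [hf, ← pow_mul]
  refine pow_dvd_of_le (R := (RG Q (Submodule.span F {x, y})).subgroupOf (EG Q))
    (fun g => ⟨2, Subtype.ext (Subtype.ext (RG_pow p g.2))⟩) fun a => ?_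
  have hb : h.Ro (St (EG Q) a) = ⊥ := (AddSubgroup.eq_bot_iff_forall _).2 fun t ht => by
    obtain ⟨c, hc⟩ := exists_smul_of_eich_eq_one hQ hx0 hx (by simp [hT.xy])
      (hR a x (t • y) hx (by simp [Q_smul, hy]) (by simp [hT.xy]) ht)
    by_contra h0
    exact hT.ind (t⁻¹ * c) (by rw [mul_smul, ← hc, inv_smul_smul₀ h0])
  have := jobHZ F V Ω Q hQ x y x' y' h (St (EG Q) a) _ le_rfl (hb ▸ bot_ne_top)
    (fun v t => (⟨_, H26.ee_mem_EG x y v t⟩ : EG Q) • a)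
    (Set.toFinite (orbit ((RG Q (Submodule.span F {x, y})).subgroupOf (EG Q)) a)).toFinset
    (fun v h1 h2 t => (Set.Finite.mem_toFinset _).2 ⟨⟨⟨_, H26.ee_mem_EG x y v t⟩, ?_⟩, rfl⟩)
    fun v v' _ _ _ _ t t' e => (coe_mem_St (g := (⟨_, H26.ee_mem_EG x y v t⟩ : EG Q)⁻¹ *
      ⟨_, H26.ee_mem_EG x y v' t'⟩)).2 (by rw [mul_smul, inv_smul_eq_iff]; exact e.symm)
  · rw [hb, AddSubgroup.card_bot, mul_one, ← Set.ncard_eq_toFinset_card, ← Nat.card_coe_set_eq] at this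
    have h4 := H26.Frm.finrank_le (Q := Q) (x := x) (y := y) (x' := x') (y' := y')
    refine Nat.le_of_mul_le_mul_right (le_trans ?_ this) (pow_pos Fintype.card_pos _)
    rw [pow_mul, ← hf, ← pow_add]
    exact Nat.pow_le_pow_right Fintype.card_pos (by omega)
  · have hl := H26.Frm.inL h1 h2
    have k := fun w => hL.mem_perp_iff (left_mem_span_pair x y) (right_mem_span_pair x y)
      (ind_of_ne hx0 hT.ind) (x := w)
    exact mul_mem (eich_mem_RG hL.sing (left_mem_span_pair x y) ((k _).2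
      ⟨by simp [hl.1, hT.xy], by simp [hl.2.1, pself hy]⟩))
      (eich_mem_RG hL.sing (right_mem_span_pair x y) ((k _).2 ⟨hl.2.2.1, hl.2.2.2⟩))

omit hp [CharP F p] in
theorem card_Q_ge (c : F) : (Fintype.card F - 1) * Fintype.card F ^ (finrank F V - 2) +
    Fintype.card F ≤ Nat.card {v // Q v = c} := by
  have : Finite V := Module.finite_of_finite F
  obtain ⟨x, -, hx0, hx⟩ := exists_sing (Q := Q) ⊤ (by rw [finrank_top]; omega)
  obtain ⟨f, H⟩ := exists_isHyp hQ hx0 hx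
  have := H.finrank_hperp
  obtain ⟨u, hu, -, hc⟩ := ((H.nondeg_hperp hQ).hasHyp (by omega)).exists_Q_eq c
  have : Nonempty {u : hperp Q x f // Q u = c} := ⟨⟨⟨u, hu⟩, hc⟩⟩
  rw [card_Q_eq H]
  exact Nat.add_le_add_left (Nat.le_mul_of_pos_right _ Nat.card_pos) _

theorem O_min (h : LB p (EG Q) Ω) : Fintype.card F ^ (finrank F V - 2) < Nat.card Ω := by
  have := h.nt
  have := h.pre
  obtain ⟨a⟩ : Nonempty Ω := inferInstance
  obtain ⟨r, hr⟩ : ∃ r, Fintype.card F = r + 2 := Nat.exists_eq_add_of_le' Fintype.one_lt_card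
  rw [← relIndex_St (Γ := EG Q) a]
  refine H26.min_relIndex hQ h7 ?_ (fun z hz => ?_) (fun h8 _ => ?_) _ (h.not_le a)
  · rw [show finrank F V - 2 = finrank F V - 3 + 1 by omega, pow_succ]
    have := pow_pos (Fintype.card_pos (α := F)) (finrank F V - 3)
    nlinarith
  · have h1 := card_Q_ge hQ h7 (Q z)
    have h2 : Nat.card {v // Q v = Q z} ≤
        (Fintype.card F - 1) * (H26.Pst Q z).relIndex (EG Q) + 1 := by
      by_cases h0 : Q z = 0
      · rw [h0, H26.relIndex_Pst_sing hQ (by omega) hz h0]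
      · rw [← H26.relIndex_Pst_ne hQ (by omega) h0]
        exact (Nat.mul_le_mul_right _ H26.card_sq_one.2.1).trans (Nat.le_succ _)
    exact Nat.lt_of_mul_lt_mul_left (a := Fintype.card F - 1) (by omega)
  · rw [h8, hr]
    exact ⟨by ring_nf; omega, .inl (by ring_nf; omega)⟩

/-- The numerical data. -/
theorem O_num (hC : JobCnt) (h : LB p (EG Q) Ω) : ∃ N : ℤ, (Nat.card Ω : ℤ) - 1 ∣ N ∧
    (Fintype.card F : ℤ) * ((Fintype.card F : ℤ) ^ 2 - 1) * N = ((Nat.card {v // Q v = 0} : ℤ) - 1) *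
      (Nat.card {v // Q v = 0} - ((Fintype.card F - 1) * Fintype.card F ^ (finrank F V - 2) +
        Fintype.card F)) := by
  have hR := jobO1 p F V Ω Q hQ h7 h
  have h1 := h.cls (LR Q) (by rintro _ ⟨-, x, y, -, -, -, rfl⟩; exact eich_mem_EG x y) (by
    rintro g - _ ⟨h1, x, y, h2, h3, h4, rfl⟩
    exact ⟨by simpa [mul_inv_eq_one] using h1, g x, g y, by rw [O.map_Q, h2], by rw [O.map_Q, h3],
      by rw [O.map_polar, h4], conj_eich g x y⟩) (by
    rintro _ ⟨h1, x, y, h2, h3, h4, rfl⟩ a ha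
    exact h1 (hR a x y h2 h3 h4 ha))
  have h2 := card_Q_ge hQ h7 0
  have h3 : 1 < Fintype.card F := Fintype.one_lt_card
  have h4 : 1 ≤ Fintype.card F ^ 2 := Nat.one_le_pow _ _ (by omega)
  have := h.nt
  have h5 : 1 < Nat.card Ω := Finite.one_lt_card
  have h6 := hC F V Q hQ _ _ (Nat.sub_add_cancel (by omega)).symm (Nat.sub_add_cancel h2).symm
  refine ⟨(LR Q).ncard, by zify [h5.le] at h1; exact h1, ?_⟩
  zify [h2, h3.le, h4, show 1 ≤ Nat.card {v // Q v = 0} by omega] at h6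
  exact h6

theorem O_even (hC : JobCnt) (h : LB p (EG Q) Ω) {k : ℕ} (hd : finrank F V = 2 * k + 8) {ε : ℤ}
    (hε : ε = 1 ∨ ε = -1) (h0 : (Nat.card {v // Q v = 0} : ℤ) = Fintype.card F ^ (2 * k + 7) +
      ε * (Fintype.card F ^ (k + 4) - Fintype.card F ^ (k + 3))) : False := by
  obtain ⟨N, h1, h2⟩ := O_num hQ h7 hC h
  have h3 := O_dvd (p := p) hQ h7 (jobO1 p F V Ω Q hQ h7 h)
  have h4 := O_min hQ h7 h
  have h5 : 2 ≤ Fintype.card F := Fintype.one_lt_card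
  rw [h0] at h2
  rw [hd] at h2 h3 h4
  zify at h3 h4 h5
  generalize (Fintype.card F : ℤ) = q at *
  generalize (Nat.card Ω : ℤ) = n at *
  obtain ⟨s, hs⟩ := geo q (k + 3)
  obtain ⟨X, hX⟩ : ∃ X, X = q ^ (k + 2) := ⟨_, rfl⟩
  have hX4 : q ^ 2 ≤ X := hX ▸ pow_le_pow_right₀ (by omega) (by omega)
  rw [show 2 * k + 8 - 2 = 2 * k + 6 by omega] at h2 h4
  rw [show 2 * k + 8 - 3 = 2 * k + 5 by omega] at h3
  have e1 : q ^ (2 * k + 6) = q ^ 2 * X ^ 2 := by rw [hX]; ring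
  have e2 : q ^ (2 * k + 5) = q * X ^ 2 := by rw [hX]; ring
  have e3 : q ^ (2 * k + 7) = q ^ 3 * X ^ 2 := by rw [hX]; ring
  have e4 : q ^ (k + 4) = q ^ 2 * X := by rw [hX]; ring
  have e5 : q ^ (k + 3) = q * X := by rw [hX]; ring
  rw [show 2 * (k + 3) = 2 * k + 6 by ring] at hs
  rw [e1] at h2 h4 hs
  rw [e2] at h3
  rw [e3, e4, e5] at h2
  have q3 : 3 ≤ q ^ 2 - 1 := by nlinarith
  have e6 : N = (q ^ 2 * X ^ 2 - 1) * (s + ε * X) :=
    mul_left_cancel₀ (a := q * (q ^ 2 - 1)) (by positivity) (by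
      rw [h2]
      rcases hε with rfl | rfl <;> linear_combination (-q * (q ^ 2 * X ^ 2 - 1)) * hs)
  have x4 : 4 ≤ X := by nlinarith
  have s1 : X ^ 2 < s := lt_of_mul_lt_mul_left (a := q ^ 2 - 1) (by nlinarith) (by omega)
  have s2 : 3 * s < 4 * X ^ 2 := lt_of_mul_lt_mul_left (a := q ^ 2 - 1) (by nlinarith) (by omega)
  have := key_le (r := s + ε * X) (T := q ^ 2 * X ^ 2) h3 ⟨q, by ring⟩
    (by rcases hε with rfl | rfl <;> nlinarith) (by rcases hε with rfl | rfl <;> nlinarith)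
    (by nlinarith) (by nlinarith) (e6 ▸ h1)
  omega

theorem O_odd (hC : JobCnt) (h : LB p (EG Q) Ω) {k : ℕ} (hd : finrank F V = 2 * (k + 3) + 1)
    (h0 : Nat.card {v // Q v = 0} = Fintype.card F ^ (2 * (k + 3))) :
    Nat.card Ω = Fintype.card F ^ (2 * (k + 3)) := by
  obtain ⟨N, h1, h2⟩ := O_num hQ h7 hC h
  have h3 := O_dvd (p := p) hQ h7 (jobO1 p F V Ω Q hQ h7 h)
  have h4 := O_min hQ h7 h
  have h5 : 2 ≤ Fintype.card F := Fintype.one_lt_card
  rw [h0] at h2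
  rw [hd] at h2 h3 h4
  rw [show 2 * (k + 3) + 1 - 2 = 2 * (k + 2) + 1 by omega] at h2 h4
  zify at h3 h4 h5 ⊢
  push_cast at h2
  generalize (Fintype.card F : ℤ) = q at *
  generalize (Nat.card Ω : ℤ) = n at *
  obtain ⟨s, hs⟩ := geo q (k + 2)
  obtain ⟨Y, hY⟩ : ∃ Y, Y = q ^ (2 * (k + 2)) := ⟨_, rfl⟩
  have hY4 : q ^ 2 < Y := hY ▸ pow_lt_pow_right₀ (by omega) (by omega)
  rw [pow_succ _ (2 * (k + 2)), ← hY] at h2 h4
  rw [show 2 * (k + 3) + 1 - 3 = 2 * (k + 2) by omega, ← hY] at h3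
  rw [show q ^ (2 * (k + 3)) = q ^ 2 * Y by rw [hY]; ring] at h2 ⊢
  rw [← hY] at hs
  have q3 : 3 ≤ q ^ 2 - 1 := by nlinarith
  have e6 : N = (q ^ 2 * Y - 1) * s :=
    mul_left_cancel₀ (a := q * (q ^ 2 - 1)) (by positivity) (by
      rw [h2]; linear_combination (-q * (q ^ 2 * Y - 1)) * hs)
  have s1 : 0 < s := lt_of_mul_lt_mul_left (a := q ^ 2 - 1) (by nlinarith) (by omega)
  refine (key (r := s) (T := q ^ 2 * Y) h3 ⟨q ^ 2, by ring⟩ s1 (by nlinarith) (by nlinarith)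
    (by nlinarith) (e6 ▸ h1)).resolve_right fun h6 => ?_
  have h8 : Y * q * (s + Y) ≤ Y * q * (q * s) := by nlinarith
  have := le_of_mul_le_mul_left h8 (mul_pos (by nlinarith) (by omega))
  nlinarith

omit hQ h7 [MulAction (EG Q) Ω] in
theorem O_lift {G : Type} [Group G] [Finite G] [MulAction G Ω] {ι : Type} [Fintype ι]
    [DecidableEq ι] (Q : QuadraticForm F (ι → F)) {q : (ι → F) → F} (e : ⇑Q = q)
    (hQ : Q.polarBilin.Nondegenerate) (h5 : 5 ≤ finrank F (ι → F))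
    (i : Nonempty (G ≃* Cfsg.POmega F q)) (h : H32.CK.CB p G Ω) :
    ∃ _ : MulAction (EG Q) Ω, LB p (EG Q) Ω :=
  lift (i.some.trans ((pOmegaEquiv Q e).trans
    (H59.quotCenterCongr (MulEquiv.subgroupCongr (commutator_eq_EOin hQ h5))))) h

end H66.CK

namespace H66.CK
open Module H56

theorem jobOp (hC : JobCnt) : H32.CK.JobOp := by
  intro p _ F _ _ _ m hm G Ω _ _ _ _ i h
  obtain ⟨k, rfl⟩ : ∃ k, m = k + 4 := ⟨m - 4, by omega⟩
  have hQ := H58.qPlus_nondeg (k + 4) F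
  have hn : finrank F (Fin (k + 4) ⊕ Fin (k + 4) → F) = 2 * k + 8 := by simp; ring
  obtain ⟨_, hL⟩ := O_lift _ (H58.coe_qPlus _ F) hQ (by omega) i h
  refine (O_even hQ (by omega) hC hL hn (.inl rfl) ?_).elim
  rw [H58.card_zero_qPlus, Nat.cast_add, Nat.cast_mul,
    Nat.cast_sub (Nat.one_le_pow _ _ Fintype.card_pos)]
  push_cast
  ring

theorem jobOm (hC : JobCnt) : H32.CK.JobOm := by
  intro p _ F _ _ _ m a b hm hab G Ω _ _ _ _ i h
  obtain ⟨k, rfl⟩ : ∃ k, m = k + 4 := ⟨m - 4, by omega⟩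
  have hQ := H58.qMinus_nondeg (k + 3) hab
  have hn : finrank F ((Fin (k + 3) ⊕ Fin (k + 3)) ⊕ Fin 2 → F) = 2 * k + 8 := by simp; ring
  obtain ⟨_, hL⟩ := O_lift _ (H58.coe_qMinus _ F a b) hQ (by omega) i h
  refine (O_even hQ (by omega) hC hL hn (.inr rfl) ?_).elim
  rw [H58.card_zero_qMinus _ hab, Nat.cast_add, Nat.cast_mul, Nat.cast_mul,
    Nat.cast_sub (Nat.one_le_pow _ _ Fintype.card_pos)]
  push_cast
  ring

theorem jobOo (hC : JobCnt) (hA : JobOddA) (hB : JobOddB) : H32.CK.JobOo := by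
  intro p _ F _ _ _ m hm ho G Ω _ _ _ _ i h
  obtain ⟨k, rfl⟩ : ∃ k, m = k + 3 := ⟨m - 3, by omega⟩
  have h2 := H58.two_ne_zero_of_odd_card ho
  have hQ := H58.qOdd_nondeg (k + 3) h2
  have hn : finrank F (Unit ⊕ (Fin (k + 3) ⊕ Fin (k + 3)) → F) = 2 * (k + 3) + 1 := by simp; ring
  obtain ⟨_, hL⟩ := O_lift _ (H58.coe_qOdd _ F) hQ (by omega) i h
  have := hL.pre
  have h0 := O_odd hQ (by omega) hC hL hn (H58.card_zero_qOddc _ one_ne_zero)
  refine (hB jobHZ F _ Ω _ hQ h2 (by omega) (by rw [h0, hn]; rfl) (hA F _ Ω _ (k + 3) hQ h2 hm hn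
    (fun c hc => ?_) h0 (jobO1 p F _ Ω _ hQ (by omega) hL))).elim
  rw [H26.card_qOdd_eq, mul_assoc, ← pow_succ, show k + 3 - 1 + 1 = k + 3 by omega, two_mul (k + 3),
    pow_add _ (k + 3), Nat.sub_one_mul]
  have h3 := Nat.le_mul_self (Fintype.card F ^ (k + 3))
  by_cases hs : ∃ x : F, x ^ 2 = c
  · obtain ⟨x, rfl⟩ := hs
    have hx : x ≠ 0 := fun e => hc (by simp [e])
    have : Nat.card {y : F // y ^ 2 = x ^ 2} = 2 := by
      exact (Nat.card_congr ((Equiv.mulRight₀ x hx).subtypeEquiv fun y => by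
        rw [Equiv.mulRight₀_apply, mul_pow, mul_eq_right₀ hc, pow_two])).symm.trans
        (H26.card_sq_one.2.2.2 h2)
    exact .inl (by rw [this]; omega)
  · have : IsEmpty {x : F // x ^ 2 = c} := ⟨fun x => hs ⟨_, x.2⟩⟩
    exact .inr (by rw [Nat.card_of_isEmpty]; omega)

end H66.CK
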