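/- CKS (S2193): chapter B for the orthogonal groups. -/
import Cfsg.Agent.H66.CKOOrth
import Cfsg.Agent.H27.CkCnt
import Cfsg.Agent.H27.CkOddB
import Cfsg.Agent.H38.CKOddA

namespace H66.CK

theorem finOp : H32.CK.JobOp := jobOp H27.CK.jobCnt

theorem finOm : H32.CK.JobOm := jobOm H27.CK.jobCnt

theorem finOo : H32.CK.JobOo := jobOo H27.CK.jobCnt H38.CK.jobOddA H27.CK.jobOddB

end H66.CK
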