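/- CKS (S2193): the unitary groups of dimension at least four. -/
import Cfsg.Agent.H66.CKOOrth
import Cfsg.Agent.S2150

set_option autoImplicit false
set_option linter.unusedSectionVars false

namespace H66.CK
open Module MulAction H59 H26.MU Finset

theorem dc {α β : Type} [Finite α] [Finite β] (r : α → β → Prop) {m n : ℕ}
    (hm : ∀ a, Nat.card {b // r a b} = m) (hn : ∀ b, Nat.card {a // r a b} = n) :
    Nat.card α * m = Nat.card β * n := by
  have := Fintype.ofFinite α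
  have := Fintype.ofFinite β
  have e : (Σ a, {b // r a b}) ≃ Σ b, {a // r a b} :=
    ⟨fun z => ⟨z.2.1, z.1, z.2.2⟩, fun z => ⟨z.2.1, z.1, z.2.2⟩, fun _ => rfl, fun _ => rfl⟩
  simpa [Nat.card_sigma, hm, hn] using Nat.card_congr e

theorem card_ne {α : Type} [Finite α] (a : α) : Nat.card {b // b ≠ a} = Nat.card α - 1 := by
  classical
  have := Fintype.ofFinite α
  rw [Nat.card_eq_fintype_card, Fintype.card_subtype_compl, Fintype.card_subtype_eq,
    Nat.card_eq_fintype_card]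

variable {p : ℕ} [hp : Fact p.Prime] {F V Ω : Type} [Field F] [Fintype F] [CharP F p]
  [AddCommGroup V] [Module F V] [FiniteDimensional F V] {q : ℕ} {hF : Fintype.card F = q ^ 2}
  {B : V →ₛₗ[frob hF] V →ₗ[F] F} [Finite Ω] [MulAction (sisom B) Ω] (h : IsHerm B)
include h

include hp in
theorem U_dvd {d : ℕ} (hd : finrank F V = d + 2) (hT : TF B Ω) : q ^ (d + 1) ∣ Nat.card Ω := by
  have : Finite V := Module.finite_of_finite F
  have := finite_linearEquiv (F := F) (V := V)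
  obtain ⟨p', k, -, hc, -, rfl⟩ := exists_char_pow hF
  obtain rfl := CharP.eq F hc ‹CharP F p›
  obtain ⟨e, -, he0, he⟩ := h.exists_isotropic_mem (W := ⊤) (by rw [finrank_top]; omega)
  obtain ⟨f, h1, h2⟩ := h.exists_partner he he0
  have H : IsHyp B e f := ⟨h, he, h2, h1⟩
  rw [← pow_mul]
  refine pow_dvd_of_le (R := (unipRad B e).subgroupOf (sisom B))
    (isPGroup_unipRad _ e).comap_subtype fun a => ?_
  have hb : Rof H (St (sisom B) a) = ⊥ := (AddSubgroup.eq_bot_iff_forall _).2 (by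
    rintro _ ⟨g, g1, g2, g3, rfl⟩
    rw [hT a e he g ((H.mem_axisGrp_iff g2).2 g3) g1, ca_one])
  obtain ⟨c, c0, c1⟩ := exists_trace_zero_ne_zero h.ne_id h.invol
  have a1 := (card_inf_le H (M := St (sisom B) a)).trans (Nat.mul_le_mul_right _
    (card_Yof_le H hd c1 (by rw [hb]; exact c0)))
  rw [hb, AddSubgroup.card_bot, mul_one] at a1
  have a2 := card_E H hd
  rw [← Nat.card_congr (Subgroup.subgroupOfEquivOfLe (h.unipRad_le_sisom he0 he)).toEquiv,
    ← (stabilizer _ a).index_mul_card, index_stabilizer, ← Nat.card_coe_set_eq] at a2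
  have a3 : Nat.card (stabilizer ((unipRad B e).subgroupOf (sisom B)) a) ≤
      Nat.card (unipRad B e ⊓ St (sisom B) a : Subgroup _) :=
    Nat.card_le_card_of_injective (fun g => ⟨g.1.1.1, g.1.2, coe_mem_St.2 g.2⟩) fun g g' e =>
      Subtype.ext (Subtype.ext (Subtype.ext (congrArg (·.1) e :)))
  refine Nat.le_of_mul_le_mul_right (le_trans ?_ (a2.trans (Nat.mul_le_mul_left _ (a3.trans a1))))
    (pow_pos (pow_pos hp.out.pos _) _)
  rw [pow_mul, ← pow_add, show d + 1 + d = 2 * d + 1 by ring]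

theorem U_num (hL : LB p (sisom B) Ω) (hT : TF B Ω) :
    ∃ N, Nat.card Ω - 1 ∣ N ∧ N * (q + 1) = numIso q (finrank F V) := by
  have : Finite V := Module.finite_of_finite F
  have := finite_linearEquiv (F := F) (V := V)
  let C : Set (V ≃ₗ[F] V) := {g | g ≠ 1 ∧ ∃ x, B x x = 0 ∧ g ∈ axisGrp B x}
  refine ⟨C.ncard, hL.cls C (fun g ⟨_, x, h1, h2⟩ => axisGrp_le_sisom h1 h2)
    (fun g hg c ⟨h0, x, h1, h2⟩ => ⟨by simpa [mul_inv_eq_one] using h0, g x, by rw [hg.1, h1],
      conj_mem_axisGrp hg.1 h2⟩) fun c ⟨h0, x, h1, h2⟩ a ha => h0 (hT a x h1 c h2 ha), ?_⟩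
  have hq := two_le_q hF
  have := dc (α := {x : {x // B x x = 0} // x ≠ ⟨0, by simp⟩}) (β := C)
    (fun x g => g.1 ∈ axisGrp B x.1.1) (m := q - 1) (n := q ^ 2 - 1) (fun x => ?_) fun g => ?_
  · rw [card_ne, h.card_isotropic, Nat.add_sub_cancel, sq_sub_one_eq (by omega), ← mul_assoc,
      Nat.card_coe_set_eq] at this
    exact (Nat.eq_of_mul_eq_mul_right (by omega) this).symm
  · obtain ⟨⟨x, hx⟩, h0⟩ := x
    have h0 : x ≠ 0 := fun e => h0 (Subtype.ext e)
    obtain ⟨f, h1, -⟩ := h.exists_partner hx h0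
    choose t t1 t2 using fun c : {c : F // c + frob hF c = 0} => h.exists_transv hx c.2
    have inj : Function.Injective t := fun c c' e => by
      have := (t2 c f).symm.trans (e ▸ t2 c' f)
      rw [h1, mul_one, mul_one, add_right_inj] at this
      exact Subtype.ext (smul_left_injective F h0 this)
    have t0 : t ⟨0, by simp⟩ = 1 := LinearEquiv.ext fun v => by simp [t2]
    refine Eq.trans ?_ ((card_ne (⟨0, by simp⟩ : {c : F // c + frob hF c = 0})).trans
      (by rw [card_trace_zero hF]))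
    refine (Nat.card_congr (Equiv.ofBijective (fun c => ⟨⟨t c.1, fun e => c.2 (inj (e.trans t0.symm)),
      x, hx, t1 _⟩, t1 _⟩) ⟨fun c c' e => Subtype.ext (inj (congrArg (·.1.1) e)), fun g => ?_⟩)).symm
    obtain ⟨c, c1, c2⟩ := (h.mem_axisGrp_isotropic hx).1 g.2
    have e : t ⟨c, c1⟩ = g.1.1 := LinearEquiv.ext fun v => by rw [t2, c2]
    exact ⟨⟨⟨c, c1⟩, fun e' => g.1.2.1 (by rw [← e, e', t0])⟩, Subtype.ext (Subtype.ext e)⟩
  · obtain ⟨g, g1, x, hx, g2⟩ := g
    have h0 : x ≠ 0 := by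
      rintro rfl
      obtain ⟨-, c, hc⟩ := mem_axisGrp'.1 g2
      exact g1 (LinearEquiv.ext fun v => by simp [hc])
    rw [← hF, ← Nat.card_eq_fintype_card, ← card_ne (0 : F)]
    refine (Nat.card_congr (Equiv.ofBijective (fun a => ⟨⟨⟨a.1 • x, by simp [hx]⟩, fun e =>
      smul_ne_zero a.2 h0 (congrArg Subtype.val e)⟩, by simpa only [axisGrp_smul _ a.2] using g2⟩)
      ⟨fun a a' e => Subtype.ext (smul_left_injective F h0 (congrArg (·.1.1.1) e)), fun y => ?_⟩)).symm
    obtain ⟨a, a0, e⟩ := h.exists_smul_of_mem_axisGrp g1 g2 y.2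
    exact ⟨⟨a, a0⟩, Subtype.ext (Subtype.ext (Subtype.ext e.symm))⟩

theorem U_le {d : ℕ} (hd : finrank F V = d + 4) (hL : LB p (sisom B) Ω) (hT : TF B Ω) :
    Nat.card Ω ≤ q ^ (d + 4) := by
  obtain ⟨N, h1, h2⟩ := U_num h hL hT
  have h3 := U_dvd (p := p) h (d := d + 2) hd hT
  have hq := two_le_q hF
  have := hL.nt
  have h4 : 1 < Nat.card Ω := Finite.one_lt_card
  have h5 : 1 ≤ q ^ (d + 3) := Nat.one_le_pow _ _ (by omega)
  have h6 : 1 ≤ q ^ (d + 4) := Nat.one_le_pow _ _ (by omega)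
  rw [hd, numIso, show d + 4 - 1 = d + 3 by omega] at h2
  have h7 : (q : ℤ) ^ 3 ≤ q ^ (d + 3) := pow_le_pow_right₀ (by omega) (by omega)
  split_ifs at h2 with ev <;> zify [h4.le, h5, h6] at h1 h2 h3 h4 hq ⊢
  · obtain ⟨r, hr⟩ := Odd.add_dvd_pow_add_pow (q : ℤ) 1
      (show Odd (d + 3) from (Nat.even_add_one.1 ev |> Nat.not_even_iff_odd.1))
    rw [one_pow] at hr
    rw [pow_succ _ (d + 3)] at h2 ⊢
    generalize (q : ℤ) ^ (d + 3) = P at *
    have e : (N : ℤ) = (P * q - 1) * r :=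
      mul_right_cancel₀ (b := (q : ℤ) + 1) (by omega) (by rw [h2, hr]; ring)
    have r0 : 0 < r := lt_of_mul_lt_mul_left (a := (q : ℤ) + 1) (by nlinarith) (by omega)
    exact key_le h3 ⟨q, rfl⟩ r0 (by nlinarith) h4 (by nlinarith) (e ▸ h1)
  · obtain ⟨r, hr⟩ := Odd.add_dvd_pow_add_pow (q : ℤ) 1 (Nat.not_even_iff_odd.1 ev)
    rw [one_pow] at hr
    rw [pow_succ _ (d + 3)] at h2 hr ⊢
    generalize (q : ℤ) ^ (d + 3) = P at *
    have e : (N : ℤ) = (P - 1) * r :=
      mul_right_cancel₀ (b := (q : ℤ) + 1) (by omega) (by rw [h2, hr]; ring)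
    have r0 : 0 < r := lt_of_mul_lt_mul_left (a := (q : ℤ) + 1) (by nlinarith) (by omega)
    have := key_le h3 dvd_rfl r0 (lt_of_mul_lt_mul_left (a := (q : ℤ) + 1) (by nlinarith) (by omega))
      h4 (by nlinarith) (e ▸ h1)
    nlinarith

omit h in
theorem U_min (hF : Fintype.card F = q ^ 2) (d : ℕ) (H : Subgroup (Cfsg.PSU (d + 4) F q))
    (hH : H ≠ ⊤) : q ^ (d + 4) < H.index := by
  have hq := two_le_q hF
  rcases d with _ | d
  · refine lt_of_lt_of_le ?_ ((Cfsg.Agent.S2150.result q hF hq).1 H hH)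
    ring_nf
    omega
  have h7 : q ^ 4 ≤ q ^ (d + 4) := Nat.pow_le_pow_right (by omega) (by omega)
  have h8 : 1 ≤ q ^ 2 := Nat.one_le_pow _ _ (by omega)
  have h9 : 2 ^ 2 ≤ q ^ 2 := Nat.pow_le_pow_left hq 2
  have h5 : 1 ≤ q ^ (d + 4) := by nlinarith
  have h6 : 1 ≤ q ^ (d + 4) * q := by nlinarith
  rcases le_total (numIso q (d + 1 + 4)) _ with c | c
  · refine le_trans ((Nat.le_div_iff_mul_le (by omega)).2 ?_) ((min_iso hF (by omega) c).1 H hH)
    rw [numIso, show d + 1 + 4 - 1 = d + 4 by omega, show d + 1 + 4 = d + 4 + 1 by omega, pow_succ]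
    generalize q ^ (d + 4) = P at *
    have : (P * q + 1) * (q ^ 2 - 1) ≤ (P * q + 1) * (P - 1) :=
      Nat.mul_le_mul_left _ (Nat.sub_le_sub_right (by nlinarith) _)
    split_ifs
    · refine this.trans ?_
      zify [h5, h6] at hq ⊢
      nlinarith
    · exact this
  · refine le_trans ((Nat.le_div_iff_mul_le (by omega)).2 ?_) ((min_ne hF (by omega) c).1 H hH)
    rw [show d + 1 + 4 - 1 = d + 4 by omega, show d + 1 + 4 = d + 4 + 1 by omega, pow_succ]
    generalize q ^ (d + 4) = P at *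
    have : (P * q + 1) * (q + 1) ≤ P * (P * q - 1) := by
      zify [h6] at hq h7 h9 ⊢
      have : (q : ℤ) + 3 ≤ P := by nlinarith
      have : (P * q + 1) * ((q : ℤ) + 1) ≤ (P * q + 1) * (P - 2) := by gcongr; omega
      nlinarith
    split_ifs
    · exact this
    · exact this.trans (Nat.mul_le_mul_left _ (by omega))

omit h in
theorem jobU (hO : JobOv) (hU : JobU2) : H32.CK.JobU := by
  intro p _ F _ _ _ m q hF hm G Ω _ _ _ _ ⟨i⟩ h
  obtain ⟨d, rfl⟩ : ∃ d, m = d + 4 := ⟨m - 4, by omega⟩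
  have := finite_linearEquiv (F := F) (V := Fin (d + 4) → F)
  obtain ⟨_, hL⟩ := lift (i.trans (psuEquiv hF _)) h
  have hB := isHerm_uForm hF (d + 4)
  have h1 := U_le hB (d := d) (by simp) hL (hU hO p F _ Ω q hF _ hB (by simp) hL)
  have := h.nontrivial
  obtain ⟨a⟩ : Nonempty Ω := inferInstance
  have h2 := U_min hF d ((stabilizer G a).map i.toMonoidHom) fun e => h.ne_top a (by
    rw [← Subgroup.comap_map_eq_self_of_injective (f := i.toMonoidHom) i.injective (stabilizer G a),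
      e, Subgroup.comap_top])
  exact absurd (h2.trans_eq (((stabilizer G a).index_map_equiv i).trans (h.index a))) h1.not_gt

end H66.CK
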