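/- CKS (S2193): the unitary chapter, closed. -/
import Cfsg.Agent.H66.CKOUni
import Cfsg.Agent.H38.CKOv
import Cfsg.Agent.H26.CKU2

namespace H66.CK

theorem finU : H32.CK.JobU := jobU H38.CK.jobOv H26.CKU.jobU2

end H66.CK
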