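import Cfsg.Agent.H11.FBSpec
import Cfsg.Agent.S0418
import Mathlib.GroupTheory.SpecificGroups.Alternating.Simple
import Mathlib.Data.Fintype.CardEmbedding

/-! # FB-TS2 -/

set_option autoImplicit false

namespace H66.FBTS2

open MulAction Subgroup H11.FB

universe u v

theorem simple_range {G : Type u} {Ω : Type v} [Group G] [Fintype Ω] [DecidableEq Ω]
    [MulAction G Ω] {N : Subgroup G} {S : Finset Ω} (π : N →* Equiv.Perm S)
    (hπ : ∀ g x, ((π g x : S) : Ω) = (g : G) • (x : Ω)) (tr : T4 N (S : Set Ω))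
    (h11 : S.card = 11) (hc : Nat.card π.range = 7920) : IsSimpleGroup π.range := by
  have ht : IsMultiplyPretransitive π.range S 4 := by
    rw [isMultiplyPretransitive_iff]
    intro x y
    have dx : ∀ z : Fin 4 ↪ S, D4 (z 0 : Ω) (z 1) (z 2) (z 3) := fun z => by
      have i : ∀ i j : Fin 4, i ≠ j → (z i : Ω) ≠ z j := fun i j hij e =>
        hij (z.injective (Subtype.ext e))
      exact ⟨i _ _ (by decide), i _ _ (by decide), i _ _ (by decide), i _ _ (by decide),
        i _ _ (by decide), i _ _ (by decide)⟩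
    obtain ⟨g, hg, e0, e1, e2, e3⟩ := tr _ _ _ _ _ _ _ _ (dx x) (dx y) (x 0).2 (x 1).2 (x 2).2
      (x 3).2 (y 0).2 (y 1).2 (y 2).2 (y 3).2
    refine ⟨⟨π ⟨g, hg⟩, ⟨g, hg⟩, rfl⟩, ?_⟩
    ext i
    change ((π ⟨g, hg⟩ (x i) : S) : Ω) = y i
    rw [hπ]
    fin_cases i
    · exact e0
    · exact e1
    · exact e2
    · exact e3
  have hS : Fintype.card S = 11 := by rw [Fintype.card_coe, h11]
  refine (Cfsg.Agent.S0418.result hS π.range fun x => ?_).1
  have h1 := (stabilizer π.range x).index_mul_card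
  rw [@index_stabilizer_of_transitive _ _ _ _ x ⟨ht.exists_smul_eq⟩, hc, Nat.card_eq_fintype_card, Fintype.card_embedding_eq,
    hS, Fintype.card_fin] at h1
  have h2 : Nat.descFactorial 11 4 = 7920 := by decide
  rw [h2] at h1
  exact eq_bot_of_card_eq _ (by omega)

theorem jobTS2 : JobTS2.{u, v} := by
  intro G Ω _ _ _ _ a U ⟨S, π, hS, hπ, tr, hc⟩
  have hcard : (fixedPoints U Ω).ncard = S.card := by rw [← hS, Set.ncard_coe_finset]
  have halt : S.card = 6 ∨ S.card = 7 → π.range = alternatingGroup S := by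
    intro h
    rcases hc with ⟨h', -⟩ | ⟨-, h'⟩ | ⟨h', -⟩
    · omega
    · exact h'
    · omega
  refine ⟨fun h M hM hn => ?_, fun h σ hσ hfix => ?_⟩
  · rw [hcard] at h
    have hs : IsSimpleGroup π.range := by
      by_cases h11 : S.card = 11
      · rcases hc with ⟨h', -⟩ | ⟨h', -⟩ | ⟨-, h'⟩
        · omega
        · omega
        · exact simple_range π hπ tr h11 h'
      · rw [halt (by omega)]
        exact alternatingGroup.isSimpleGroup
          (by rw [Nat.card_eq_fintype_card, Fintype.card_coe]; omega)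
    have hn' : (M.subgroupOf (normalizer (U : Set G))).Normal :=
      ⟨fun x hx g => hn g g.2 x hx⟩
    have hn2 := hn'.map π.rangeRestrict π.rangeRestrict_surjective
    rcases hs.eq_bot_or_eq_top_of_normal _ hn2 with e | e
    · left
      intro m hm ω hω
      have h1 : π.rangeRestrict ⟨m, hM hm⟩ ∈ (M.subgroupOf (normalizer (U : Set G))).map
          π.rangeRestrict := mem_map_of_mem _ hm
      rw [e, mem_bot] at h1
      have h2 : π ⟨m, hM hm⟩ = 1 := congrArg Subtype.val h1
      have hω' : ω ∈ S := by rw [← Finset.mem_coe, hS]; exact hω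
      have := hπ ⟨m, hM hm⟩ ⟨ω, hω'⟩
      rw [h2] at this
      exact this.symm
    · right
      intro g hg
      have h1 : π.rangeRestrict ⟨g, hg⟩ ∈ (M.subgroupOf (normalizer (U : Set G))).map
          π.rangeRestrict := e ▸ mem_top _
      obtain ⟨m, hm, h2⟩ := h1
      refine ⟨m, hm, fun ω hω => ?_⟩
      have h3 : π m = π ⟨g, hg⟩ := congrArg Subtype.val h2
      have hω' : ω ∈ S := by rw [← Finset.mem_coe, hS]; exact hω
      have e1 := hπ m ⟨ω, hω'⟩
      have e2 := hπ ⟨g, hg⟩ ⟨ω, hω'⟩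
      rw [h3] at e1
      exact e1.symm.trans e2
  · rw [hcard] at h
    have hfix' : ∀ ω, σ ω ≠ ω → ω ∈ S := fun ω hω => by
      by_contra hn
      exact hω (hfix ω fun e => hn (by rw [← Finset.mem_coe, hS]; exact e))
    have hinv : ∀ ω, σ ω ∈ S ↔ ω ∈ S := fun ω => by
      by_cases e : σ ω = ω
      · rw [e]
      · exact iff_of_true (hfix' _ fun e' => e (σ.injective e')) (hfix' _ e)
    have hm : σ.subtypePerm hinv ∈ π.range := by
      rw [halt h, Equiv.Perm.mem_alternatingGroup, ← hσ]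
      convert Equiv.Perm.sign_subtypePerm σ hinv hfix'
    obtain ⟨g, hg⟩ := hm
    refine ⟨g, g.2, fun ω hω => ?_⟩
    have hω' : ω ∈ S := by rw [← Finset.mem_coe, hS]; exact hω
    have e1 := hπ g ⟨ω, hω'⟩
    rw [hg] at e1
    exact e1.symm

end H66.FBTS2
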