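import Cfsg.Agent.H65.PhanAut
import Cfsg.Agent.H54.SpBlocks
import Cfsg.Agent.H57.SLGen

/-! Laws in `SL₂`, alternating and classical groups. -/

set_option autoImplicit false
set_option linter.unusedSectionVars false
set_option linter.unusedVariables false
set_option linter.style.haveILetI false

namespace H66.Law

open Polynomial Matrix Cfsg

/-- some value of `w` in `H` is not central -/
def NL (w : FreeGroup ℕ) (H : Type*) [Group H] : Prop :=
  ∃ f : ℕ → H, FreeGroup.lift f w ∉ Subgroup.center H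

theorem map_lift {H G : Type*} [Group H] [Group G] (φ : H →* G) (f : ℕ → H) (w : FreeGroup ℕ) :
    φ (FreeGroup.lift f w) = FreeGroup.lift (fun i => φ (f i)) w :=
  FreeGroup.lift_unique (φ.comp (FreeGroup.lift f)) (by simp)

theorem NL.of_inj {w : FreeGroup ℕ} {H G : Type*} [Group H] [Group G] (h : NL w H) (φ : H →* G)
    (hφ : Function.Injective φ) : NL w G := by
  obtain ⟨f, hf⟩ := h
  refine ⟨fun i => φ (f i), fun hc => hf (Subgroup.mem_center_iff.2 fun g => hφ ?_)⟩
  rw [map_mul, map_mul, map_lift]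
  exact Subgroup.mem_center_iff.1 hc _

theorem NL.comm {w : FreeGroup ℕ} {H G : Type*} [Group H] [Group G] (h : NL w H)
    (hp : commutator H = ⊤) (φ : H →* G) (hφ : Function.Injective φ) : NL w (commutator G) := by
  have hm : ∀ x, φ x ∈ commutator G := fun x => by
    have h1 : φ x ∈ (commutator H).map φ := ⟨x, hp ▸ Subgroup.mem_top x, rfl⟩
    rw [commutator_def, Subgroup.map_commutator] at h1
    exact Subgroup.commutator_mono le_top le_top h1
  exact h.of_inj (φ.codRestrict _ hm) fun x y e => hφ (congrArg Subtype.val e)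

theorem NL.ne_one {w : FreeGroup ℕ} {H : Type*} [Group H] (h : NL w H) :
    ∃ f : ℕ → H, FreeGroup.lift f w ≠ 1 :=
  let ⟨f, hf⟩ := h; ⟨f, fun e => hf (e ▸ Subgroup.one_mem _)⟩

theorem NL.quot {w : FreeGroup ℕ} {H : Type*} [Group H] (h : NL w H) :
    ∃ f : ℕ → H ⧸ Subgroup.center H, FreeGroup.lift f w ≠ 1 := by
  obtain ⟨f, hf⟩ := h
  refine ⟨fun i => QuotientGroup.mk' _ (f i), fun e => hf ?_⟩
  rw [← map_lift] at e
  exact (QuotientGroup.eq_one_iff _).1 e

theorem not_law_of_equiv {w : FreeGroup ℕ} {H G : Type*} [Group H] [Group G] (e : G ≃* H)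
    (h : ∃ f : ℕ → H, FreeGroup.lift f w ≠ 1) : ¬ ∀ f : ℕ → G, FreeGroup.lift f w = 1 := by
  obtain ⟨f, hf⟩ := h
  intro hall
  have := hall fun i => e.symm.toMonoidHom (f i)
  rw [← map_lift] at this
  exact hf (by simpa using this)

/-! ### `SL₂` -/

/-- exponent at the left end of a letter -/
def ll (p : ℕ × Bool) : ℕ := 2 * p.1 + (if p.2 then 1 else 2)

/-- exponent at the right end of a letter -/
def rr (p : ℕ × Bool) : ℕ := 2 * p.1 + (if p.2 then 2 else 1)

theorem rr_ne_ll {p p' : ℕ × Bool} (h : p.1 = p'.1 → p.2 = p'.2) : rr p ≠ ll p' := by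
  obtain ⟨i, s⟩ := p
  obtain ⟨j, t⟩ := p'
  cases s <;> cases t <;> simp [rr, ll] at h ⊢ <;> omega

theorem rr_pos (p : ℕ × Bool) : 0 < rr p := by
  unfold rr
  split_ifs <;> omega

/-- degree bound -/
def bd : List (ℕ × Bool) → ℕ
  | p :: p' :: L => max (rr p) (ll p') + bd (p' :: L)
  | _ => 0

section Ring
variable {R : Type*} [CommRing R]

/-- upper unitriangular matrix -/
def U (b : R) : SpecialLinearGroup (Fin 2) R := ⟨!![1, b; 0, 1], by simp [det_fin_two]⟩

/-- the Weyl element and its inverse -/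
def W (s : Bool) : SpecialLinearGroup (Fin 2) R :=
  ⟨!![0, cond s 1 (-1); cond s (-1) 1, 0], by cases s <;> simp [det_fin_two]⟩

/-- sign -/
def sg (R : Type*) [CommRing R] (s : Bool) : R := cond s 1 (-1)

theorem U_val (b : R) : (U b).1 = !![1, b; 0, 1] := rfl

theorem W_val (s : Bool) : (W s : SpecialLinearGroup (Fin 2) R).1 = !![0, cond s 1 (-1); cond s (-1) 1, 0] := rfl

theorem val_mul (A B : SpecialLinearGroup (Fin 2) R) : (A * B).1 = A.1 * B.1 := rfl

theorem U_mul (a b : R) : U a * U b = U (a + b) := by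
  apply Subtype.ext
  rw [val_mul, U_val, U_val, U_val]
  simp [add_comm]

theorem U_inv (a : R) : (U a)⁻¹ = U (-a) := by
  rw [inv_eq_iff_mul_eq_one, U_mul, add_neg_cancel]
  ext i j
  fin_cases i <;> fin_cases j <;> simp [U]

theorem W_inv : (W true : SpecialLinearGroup (Fin 2) R)⁻¹ = W false := by
  rw [inv_eq_iff_mul_eq_one]
  apply Subtype.ext
  rw [val_mul, W_val, W_val]
  change _ = (1 : Matrix (Fin 2) (Fin 2) R)
  simp [one_fin_two]

/-- the substitution -/
def sub (a : R) (i : ℕ) : SpecialLinearGroup (Fin 2) R := U (a ^ (2 * i + 1)) * W true * U (a ^ (2 * i + 2))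

theorem sub_eq (a : R) (p : ℕ × Bool) : cond p.2 (sub a p.1) (sub a p.1)⁻¹ =
    U (sg R p.2 * a ^ ll p) * W p.2 * U (sg R p.2 * a ^ rr p) := by
  obtain ⟨i, s⟩ := p
  cases s
  · simp [sub, ll, rr, sg, U_inv, W_inv, mul_assoc]
  · simp [sub, ll, rr, sg]

theorem UW_00 (b : R) (s : Bool) (M : SpecialLinearGroup (Fin 2) R) :
    (U b * W s * M).1 0 0 = sg R s * (M.1 1 0 - b * M.1 0 0) := by
  rw [val_mul, val_mul, U_val, W_val, mul_apply, Fin.sum_univ_two]
  cases s <;> simp [sg] <;> ring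

theorem UW_10 (b : R) (s : Bool) (M : SpecialLinearGroup (Fin 2) R) :
    (U b * W s * M).1 1 0 = -(sg R s * M.1 0 0) := by
  rw [val_mul, val_mul, U_val, W_val, mul_apply, Fin.sum_univ_two]
  cases s <;> simp [sg]

end Ring

variable {F : Type*} [Field F]

theorem natDegree_sg (s : Bool) (f : F[X]) : (sg F[X] s * f).natDegree = f.natDegree := by
  cases s <;> simp [sg]

theorem sg_mul_ne (s : Bool) {f : F[X]} (h : f ≠ 0) : sg F[X] s * f ≠ 0 := by
  cases s <;> simp [sg, h]

theorem natDegree_b (s t : Bool) {i j : ℕ} (h : i ≠ j) :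
    (sg F[X] s * X ^ i + sg F[X] t * X ^ j : F[X]).natDegree = max i j := by
  rcases lt_or_gt_of_ne h with h | h
  · rw [natDegree_add_eq_right_of_natDegree_lt (by simpa [natDegree_sg] using h), natDegree_sg,
      natDegree_X_pow, max_eq_right h.le]
  · rw [natDegree_add_eq_left_of_natDegree_lt (by simpa [natDegree_sg] using h), natDegree_sg,
      natDegree_X_pow, max_eq_left h.le]

theorem deg_aux : ∀ (L : List (ℕ × Bool)) (p : ℕ × Bool), FreeGroup.IsReduced (p :: L) →
    (U (sg F[X] p.2 * X ^ rr p) * FreeGroup.lift (sub (X : F[X])) (FreeGroup.mk L)).1 0 0 ≠ 0 ∧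
    ((U (sg F[X] p.2 * X ^ rr p) * FreeGroup.lift (sub (X : F[X])) (FreeGroup.mk L)).1 0 0).natDegree =
      bd (p :: L) ∧
    ((U (sg F[X] p.2 * X ^ rr p) * FreeGroup.lift (sub (X : F[X])) (FreeGroup.mk L)).1 1 0).natDegree ≤
      bd (p :: L)
  | [], p, _ => by
    rw [← FreeGroup.one_eq_mk, map_one, mul_one]
    simp [U, bd]
  | p' :: L, p, h => by
    rw [FreeGroup.isReduced_cons_cons] at h
    obtain ⟨h1, h2, h3⟩ := deg_aux L p' h.2
    rw [FreeGroup.lift_mk] at h1 h2 h3 ⊢
    rw [List.map_cons, List.prod_cons, sub_eq, ← mul_assoc, ← mul_assoc, ← mul_assoc, U_mul,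
      mul_assoc _ (U _), UW_00, UW_10]
    set M := U (sg F[X] p'.2 * X ^ rr p') * _
    set b := sg F[X] p.2 * X ^ rr p + sg F[X] p'.2 * X ^ ll p' with hb
    have h4 : b.natDegree = max (rr p) (ll p') := natDegree_b _ _ (rr_ne_ll h.1)
    have h5 : 0 < max (rr p) (ll p') := lt_max_of_lt_left (rr_pos p)
    have b0 : b ≠ 0 := fun e => by rw [e, natDegree_zero] at h4; omega
    have h6 : (b * M.1 0 0).natDegree = bd (p :: p' :: L) := by
      rw [natDegree_mul b0 h1, h4, h2]; rfl
    have h7 : bd (p' :: L) < bd (p :: p' :: L) := by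
      change _ < max (rr p) (ll p') + bd (p' :: L); omega
    have h8 : (M.1 1 0 - b * M.1 0 0).natDegree = bd (p :: p' :: L) := by
      rw [natDegree_sub_eq_right_of_natDegree_lt (by omega), h6]
    refine ⟨sg_mul_ne _ fun e => ?_, by rw [natDegree_sg, h8], ?_⟩
    · rw [e, natDegree_zero] at h8; omega
    · rw [natDegree_neg, natDegree_sg, h2]; exact h7.le

theorem nl_sl2 {w : FreeGroup ℕ} (hw : w ≠ 1) (F : Type*) [Field F] [Finite F]
    (hF : bd w.toWord < Nat.card F) : NL w (SpecialLinearGroup (Fin 2) F) := by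
  classical
  haveI := Fintype.ofFinite F
  rcases hL : w.toWord with _ | ⟨p, L⟩
  · exact absurd (FreeGroup.toWord_eq_nil_iff.mp hL) hw
  obtain ⟨h1, h2, -⟩ := deg_aux (F := F) L p (hL ▸ FreeGroup.isReduced_toWord (x := w))
  by_contra h
  refine h1 (eq_zero_of_natDegree_lt_card_of_eval_eq_zero _ Function.injective_id (fun a => ?_)
    (by rw [h2, ← hL, ← Nat.card_eq_fintype_card]; exact hF))
  unfold NL at h
  push Not at h
  have h3 := h fun i => SpecialLinearGroup.map (evalRingHom a) (sub X i)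
  rw [← map_lift] at h3
  have h4 := congrArg (fun M : SpecialLinearGroup (Fin 2) F => M.1 0 0)
    (Subgroup.mem_center_iff.1 h3 (U 1))
  have h5 : (SpecialLinearGroup.map (evalRingHom a) (FreeGroup.lift (sub (X : F[X])) w)).1 1 0 = 0 := by
    simp only [val_mul, U_val, mul_apply, Fin.sum_univ_two] at h4
    simpa using h4
  rw [← FreeGroup.mk_toWord (x := w), hL, FreeGroup.lift_mk, List.map_cons, List.prod_cons, sub_eq,
    mul_assoc _ (U _), ← FreeGroup.lift_mk] at h5
  change eval a ((_ : SpecialLinearGroup (Fin 2) F[X]).1 1 0) = 0 at h5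
  rw [UW_10] at h5
  cases hs : p.2 <;> simpa [hs, sg] using h5

/-! ### alternating groups -/

theorem exists_alt {w : FreeGroup ℕ} (hw : w ≠ 1) :
    ∃ N : ℕ, ∀ n : ℕ, N ≤ n → NL w (alternatingGroup (Fin n)) := by
  classical
  obtain ⟨p, hp1, hp⟩ := Nat.exists_infinite_primes (bd w.toWord + 1)
  haveI : Fact p.Prime := ⟨hp⟩
  have h := nl_sl2 hw (ZMod p) (by rw [Nat.card_zmod]; omega)
  set H := SpecialLinearGroup (Fin 2) (ZMod p)
  haveI : Fintype H := Fintype.ofFinite H
  refine ⟨Fintype.card (H ⊕ H), fun n hn => ?_⟩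
  obtain ⟨ι⟩ : Nonempty (H ⊕ H ↪ Fin n) := Function.Embedding.nonempty_of_card_le (by simpa using hn)
  let ρ : H →* Equiv.Perm H := MulAction.toPermHom H H
  let φ : H →* Equiv.Perm (Fin n) :=
    (Equiv.Perm.viaEmbeddingHom ι).comp ((Equiv.Perm.sumCongrHom H H).comp (ρ.prod ρ))
  have hφ : Function.Injective φ := by
    refine (Equiv.Perm.viaEmbeddingHom_injective ι).comp (Equiv.Perm.sumCongrHom_injective.comp ?_)
    intro x y e
    exact MulAction.toPerm_injective (congrArg Prod.fst e)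
  have hm : ∀ x, φ x ∈ alternatingGroup (Fin n) := fun x => by
    rw [Equiv.Perm.mem_alternatingGroup]
    have h1 : Equiv.Perm.sign (Equiv.Perm.sumCongr (ρ x) (ρ x)) = 1 := by
      rw [Equiv.Perm.sign_sumCongr, Int.units_mul_self]
    rw [← h1]
    convert @Equiv.Perm.sign_extendDomain _ _ _ _ _ _ (Equiv.Perm.sumCongr (ρ x) (ρ x)) _
      (fun a => Classical.propDecidable _) (Equiv.ofInjective ι.1 ι.2)
    rfl
  exact h.of_inj (φ.codRestrict _ hm) fun x y e => hφ (congrArg Subtype.val e)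

/-! ### embeddings -/

/-- permutation matrices -/
def altSL (n : ℕ) (F : Type*) [Field F] : alternatingGroup (Fin n) →* SpecialLinearGroup (Fin n) F where
  toFun σ := ⟨permMatrixHom σ.1, by
    have := Equiv.Perm.mem_alternatingGroup.1 σ.2
    simp [this]⟩
  map_one' := Subtype.ext (by simp)
  map_mul' σ τ := Subtype.ext (map_mul (permMatrixHom (R := F)) σ.1 τ.1)

theorem altSL_injective (n : ℕ) : Function.Injective (altSL n F) := by
  rw [injective_iff_map_eq_one]
  intro σ h
  have h1 : (σ.1⁻¹.permMatrix F) = 1 := congrArg Subtype.val h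
  apply Subtype.ext
  rw [OneMemClass.coe_one, ← inv_eq_one]
  ext i
  have h2 := congrFun (permMatrix_mulVec (σ := σ.1⁻¹) (v := Pi.single i (1 : F))) i
  rw [h1, one_mulVec, Function.comp_apply, Pi.single_eq_same] at h2
  by_contra hne
  rw [Pi.single_eq_of_ne (fun e => hne (by rw [e]; rfl))] at h2
  exact one_ne_zero h2

/-- block embedding -/
def blkSL {j m : ℕ} (ι : Fin j ↪ Fin m) : SpecialLinearGroup (Fin j) F →* SpecialLinearGroup (Fin m) F where
  toFun A := ⟨H65.Phan.blk ι A.1, by rw [H65.Phan.det_blk, A.2]⟩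
  map_one' := Subtype.ext (H65.Phan.blk_one ι)
  map_mul' A B := Subtype.ext (H65.Phan.blk_mul ι _ _)

theorem blkSL_injective {j m : ℕ} (ι : Fin j ↪ Fin m) : Function.Injective (blkSL (F := F) ι) :=
  fun _ _ e => Subtype.ext (H65.Phan.blk_injective ι (congrArg Subtype.val e))

theorem nl_sl {w : FreeGroup ℕ} (hw : w ≠ 1) : ∃ N : ℕ, ∀ (F : Type) [Field F] [Finite F] (n : ℕ), 2 ≤ n →
    (N ≤ n ∨ N ≤ Nat.card F) → NL w (SpecialLinearGroup (Fin n) F) := by
  obtain ⟨N, hN⟩ := exists_alt hw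
  refine ⟨max N (bd w.toWord + 1), fun F _ _ n hn h => ?_⟩
  rcases h with h | h
  · exact (hN n (le_of_max_le_left h)).of_inj _ (altSL_injective n)
  · exact (nl_sl2 hw F (le_of_max_le_right h)).of_inj _ (blkSL_injective (Fin.castLEEmb hn))

theorem nl_su {w : FreeGroup ℕ} (hw : w ≠ 1) : ∃ N : ℕ, ∀ (F : Type) [Field F] [Fintype F] (n q : ℕ),
    Fintype.card F = q ^ 2 → 2 ≤ n → (N ≤ n ∨ N ≤ Nat.card F) → NL w (SU n F q) := by
  obtain ⟨N, hN⟩ := exists_alt hw
  refine ⟨max N ((bd w.toWord + 1) ^ 2), fun F _ _ n q hF hn h => ?_⟩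
  rcases h with h | h
  · have hm : ∀ σ, altSL n F σ ∈ SU n F q := fun σ u v => by
      change hermForm n F q (σ.1⁻¹.permMatrix F *ᵥ u) (σ.1⁻¹.permMatrix F *ᵥ v) = _
      rw [permMatrix_mulVec, permMatrix_mulVec]
      exact Equiv.sum_comp σ.1⁻¹ (fun i => u i * v i ^ q)
    exact (hN n (le_of_max_le_left h)).of_inj ((altSL n F).codRestrict _ hm)
      fun x y e => altSL_injective n (congrArg Subtype.val e)
  · obtain ⟨-, -, θ, -⟩ := H65.Phan.exists_su2_equiv hF
    set K := (H59.frob hF).eqLocusField (RingHom.id F)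
    have hK : Nat.card F ≤ Nat.card K ^ 2 := by
      let τ : F →+ K := AddMonoidHom.mk' (fun x => ⟨x + H59.frob hF x, by
        change H59.frob hF _ = _
        rw [map_add, H59.frob_frob, add_comm]; rfl⟩) (fun x y => Subtype.ext (by
          change x + y + H59.frob hF (x + y) = x + H59.frob hF x + (y + H59.frob hF y)
          rw [map_add]; ring))
      have h1 : Nat.card τ.ker ≤ Nat.card K := by
        by_cases h0 : ∃ δ ∈ τ.ker, δ ≠ 0
        · obtain ⟨δ, hδ, hδ0⟩ := h0
          have hk : ∀ x ∈ τ.ker, H59.frob hF x = -x := fun x hx =>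
            eq_neg_of_add_eq_zero_right (congrArg Subtype.val (AddMonoidHom.mem_ker.1 hx))
          refine Nat.card_le_card_of_injective (fun x : τ.ker => (⟨x.1 / δ, by
            change H59.frob hF _ = _
            rw [map_div₀, hk _ x.2, hk _ hδ, neg_div_neg_eq]; rfl⟩ : K)) fun x y e => ?_
          exact Subtype.ext ((div_left_inj' hδ0).1 (congrArg Subtype.val e))
        · push Not at h0
          have : τ.ker = ⊥ := (AddSubgroup.eq_bot_iff_forall _).2 h0
          rw [this, AddSubgroup.card_bot]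
          exact Nat.card_pos
      rw [← τ.ker.card_mul_index, AddSubgroup.index_ker, sq]
      exact Nat.mul_le_mul h1 τ.range.card_le_card_addGroup
    have h2 : bd w.toWord + 1 ≤ Nat.card K :=
      (Nat.pow_le_pow_iff_left two_ne_zero).1 ((le_of_max_le_right h).trans hK)
    exact ((nl_sl2 hw K h2).of_inj θ.toMonoidHom θ.injective).of_inj _
      (H65.Phan.blkHom_injective hF (Fin.castLEEmb hn))

section Blocks
variable {ι κ : Type} [Fintype ι] [DecidableEq ι] [Fintype κ] [DecidableEq κ]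

/-- `M ↦ diag(1, M)` -/
def blkR (κ : Type) [Fintype κ] [DecidableEq κ] : Matrix ι ι F →* Matrix (κ ⊕ ι) (κ ⊕ ι) F where
  toFun M := fromBlocks 1 0 0 M
  map_one' := fromBlocks_one
  map_mul' A B := by simp [fromBlocks_multiply]

/-- `M ↦ diag(M, 1)` -/
def blkL (κ : Type) [Fintype κ] [DecidableEq κ] : Matrix ι ι F →* Matrix (ι ⊕ κ) (ι ⊕ κ) F where
  toFun M := fromBlocks M 0 0 1
  map_one' := fromBlocks_one
  map_mul' A B := by simp [fromBlocks_multiply]

theorem blkR_injective : Function.Injective (blkR (ι := ι) (F := F) κ) :=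
  fun _ _ e => (fromBlocks_inj.1 e).2.2.2

theorem blkL_injective : Function.Injective (blkL (ι := ι) (F := F) κ) :=
  fun _ _ e => (fromBlocks_inj.1 e).1

end Blocks

/-- the Levi embedding as matrices -/
def levi (m : ℕ) (F : Type*) [Field F] :
    SpecialLinearGroup (Fin m) F →* Matrix (Fin m ⊕ Fin m) (Fin m ⊕ Fin m) F :=
  ((symplecticGroup (Fin m) F).subtype.comp H54.spLevi).comp SpecialLinearGroup.toGL

theorem levi_injective (m : ℕ) : Function.Injective (levi m F) :=
  (Subtype.val_injective.comp H54.spLevi_injective).comp SpecialLinearGroup.toGL_injective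

theorem levi_plus (m : ℕ) (A : SpecialLinearGroup (Fin m) F) (v : Fin m ⊕ Fin m → F) :
    quadFormPlus m F (levi m F A *ᵥ v) = quadFormPlus m F v := by
  have h : levi m F A *ᵥ v = Sum.elim (A.1 *ᵥ (v ∘ Sum.inl)) ((A⁻¹).1ᵀ *ᵥ (v ∘ Sum.inr)) := by
    have := H54.spLevi_smul (SpecialLinearGroup.toGL A) v
    rw [← map_inv] at this
    exact this
  rw [h]
  change (A.1 *ᵥ (v ∘ Sum.inl)) ⬝ᵥ ((A⁻¹).1ᵀ *ᵥ (v ∘ Sum.inr)) = (v ∘ Sum.inl) ⬝ᵥ (v ∘ Sum.inr)
  have h1 : (A⁻¹).1 * A.1 = 1 := congrArg Subtype.val (inv_mul_cancel A)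
  rw [dotProduct_mulVec, vecMul_transpose, mulVec_mulVec, h1, one_mulVec]

theorem nl_omega {w : FreeGroup ℕ} {H : Type*} [Group H] (h : NL w H) (hp : commutator H = ⊤)
    {ι : Type} [Fintype ι] [DecidableEq ι] (Q : (ι → F) → F) (φ : H →* Matrix ι ι F)
    (hφ : Function.Injective φ) (hQ : ∀ x v, Q (φ x *ᵥ v) = Q v) : NL w (Omega F Q) :=
  h.comm hp (φ.toHomUnits.codRestrict (isometryGroup F Q) fun x u _ => hQ x u)
    fun x y e => hφ (congrArg (fun g : isometryGroup F Q => g.1.1) e)

theorem card_le_of_inj {H : Type*} {ι : Type} [Fintype ι] [Finite F] (f : H → Matrix ι ι F)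
    (hf : Function.Injective f) {N : ℕ} (h1 : Fintype.card ι ≤ N) (h2 : Nat.card F ≤ N) :
    Nat.card H ≤ N ^ (N * N) := by
  refine (Nat.card_le_card_of_injective f hf).trans ?_
  have h0 : 0 < Nat.card F := Nat.card_pos
  change Nat.card (ι → ι → F) ≤ _
  rw [Nat.card_fun, Nat.card_fun, ← pow_mul, Nat.card_eq_fintype_card (α := ι)]
  exact (Nat.pow_le_pow_left h2 _).trans (Nat.pow_le_pow_right (by omega) (Nat.mul_le_mul h1 h1))

theorem card_quot_le {H G : Type*} [Group H] [Finite H] [Group G] (e : G ≃* H ⧸ Subgroup.center H) :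
    Nat.card G ≤ Nat.card H := by
  rw [Nat.card_congr e.toEquiv]
  exact Nat.card_le_card_of_surjective _ QuotientGroup.mk_surjective

theorem bound {w : FreeGroup ℕ} (hw : w ≠ 1) :
    ∃ N : ℕ, ∀ (G : Type*) [Group G] [Finite G],
      (IsAlternating G ∨ IsPSL G ∨ IsPSp G ∨ IsPSU G ∨ IsPOmegaOdd G ∨
          IsPOmegaPlus G ∨ IsPOmegaMinus G) →
      (∀ f : ℕ → G, FreeGroup.lift f w = 1) → Nat.card G ≤ N := by
  obtain ⟨N1, h1⟩ := exists_alt hw
  obtain ⟨N2, h2⟩ := nl_sl hw
  obtain ⟨N3, h3⟩ := nl_su hw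
  set M := 2 * (N2 + N3) + 2 with hM
  refine ⟨max N1.factorial (M ^ (M * M)), fun G _ _ hG hl => ?_⟩
  have key : ∀ (F : Type) [Field F] [Finite F] (m : ℕ), 2 ≤ m → ¬ NL w (SpecialLinearGroup (Fin m) F) →
      2 * m + 2 ≤ M ∧ Nat.card F ≤ M := by
    intro F _ _ m hm hn
    have := mt (h2 F m hm) hn
    omega
  rcases hG with ⟨n, -, ⟨e⟩⟩ | ⟨F, _, _, n, hn, -, ⟨e⟩⟩ | ⟨F, _, _, m, hm, -, ⟨e⟩⟩ |
    ⟨F, _, _, n, q, hF, hn, -, ⟨e⟩⟩ | ⟨F, _, _, m, hm, -, ⟨e⟩⟩ | ⟨F, _, _, m, hm, ⟨e⟩⟩ |
    ⟨F, _, _, m, a, b, hm, -, ⟨e⟩⟩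
  · refine le_max_of_le_left ?_
    have hn : n ≤ N1 := by
      by_contra hn
      exact not_law_of_equiv e (h1 n (by omega)).ne_one hl
    rw [Nat.card_congr e.toEquiv]
    refine (Subgroup.card_le_card_group _).trans ?_
    rw [Nat.card_perm, Nat.card_fin]
    exact Nat.factorial_le hn
  · obtain ⟨h4, h5⟩ := key F n hn fun h => not_law_of_equiv e h.quot hl
    exact le_max_of_le_right ((card_quot_le e).trans
      (card_le_of_inj Subtype.val Subtype.val_injective (by simp; omega) h5))
  · obtain ⟨h4, h5⟩ := key F m hm fun h => not_law_of_equiv e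
      (h.of_inj (H54.spLevi.comp SpecialLinearGroup.toGL)
        (H54.spLevi_injective.comp SpecialLinearGroup.toGL_injective)).quot hl
    exact le_max_of_le_right ((card_quot_le e).trans
      (card_le_of_inj Subtype.val Subtype.val_injective (by simp; omega) h5))
  · have h4 := mt (h3 F n q hF (by omega)) fun h => not_law_of_equiv e h.quot hl
    exact le_max_of_le_right ((card_quot_le e).trans
      (card_le_of_inj (fun g : SU n F q => g.1.1) (Subtype.val_injective.comp Subtype.val_injective)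
        (by simp; omega) (by omega)))
  · obtain ⟨h4, h5⟩ := key F m (by omega) fun h => not_law_of_equiv e
      (nl_omega h (H57.sl_commutator_eq_top_of_three_le (by simpa using hm)) (quadFormOdd m F)
        ((blkR Unit).comp (levi m F)) (blkR_injective.comp (levi_injective m)) fun A v => by
          have := levi_plus m A (v ∘ Sum.inr)
          change quadFormOdd m F (fromBlocks 1 0 0 (levi m F A) *ᵥ v) = _
          rw [fromBlocks_mulVec]
          simp only [quadFormOdd, quadFormPlus, Sum.elim_inl, Sum.elim_inr, one_mulVec, zero_mulVec,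
            add_zero, zero_add, Function.comp_apply] at this ⊢
          rw [this]).quot hl
    exact le_max_of_le_right ((card_quot_le e).trans
      (card_le_of_inj (fun g : Omega F (quadFormOdd m F) => g.1.1.1)
        (Units.val_injective.comp (Subtype.val_injective.comp Subtype.val_injective))
        (by simp; omega) h5))
  · obtain ⟨h4, h5⟩ := key F m (by omega) fun h => not_law_of_equiv e
      (nl_omega h (H57.sl_commutator_eq_top_of_three_le (by simp; omega)) (quadFormPlus m F)
        (levi m F) (levi_injective m) (levi_plus m)).quot hl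
    exact le_max_of_le_right ((card_quot_le e).trans
      (card_le_of_inj (fun g : Omega F (quadFormPlus m F) => g.1.1.1)
        (Units.val_injective.comp (Subtype.val_injective.comp Subtype.val_injective))
        (by simp; omega) h5))
  · obtain ⟨h4, h5⟩ := key F (m - 1) (by omega) fun h => not_law_of_equiv e
      (nl_omega h (H57.sl_commutator_eq_top_of_three_le (by simp; omega)) (quadFormMinus (m - 1) F a b)
        ((blkL (Fin 2)).comp (levi (m - 1) F)) (blkL_injective.comp (levi_injective _)) fun A v => by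
          have := levi_plus (m - 1) A (v ∘ Sum.inl)
          change quadFormMinus (m - 1) F a b (fromBlocks (levi (m - 1) F A) 0 0 1 *ᵥ v) = _
          rw [fromBlocks_mulVec]
          simp only [quadFormMinus, quadFormPlus, Sum.elim_inl, Sum.elim_inr, one_mulVec, zero_mulVec,
            add_zero, zero_add, Function.comp_apply] at this ⊢
          rw [this]).quot hl
    exact le_max_of_le_right ((card_quot_le e).trans
      (card_le_of_inj (fun g : Omega F (quadFormMinus (m - 1) F a b) => g.1.1.1)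
        (Units.val_injective.comp (Subtype.val_injective.comp Subtype.val_injective))
        (by simp; omega) h5))

end H66.Law
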