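import Cfsg.Agent.H52.RCSpec
import Cfsg.Agent.H98.Sylow
import Cfsg.Agent.S3861

/-! # RC-KA: the kit of tower RC -/

set_option autoImplicit false

namespace H66.RCKA

open H52.RC Subgroup H98

universe u

variable {G : Type u} [Group G]

theorem ka2 [Finite G] (g : G) :
    ∃ k : ℕ, Odd k ∧ P2 (g ^ k) ∧ ∀ x : G, Inv g x → Inv (g ^ k) x := by
  obtain ⟨a, k, hk, e⟩ := Nat.exists_eq_two_pow_mul_odd (orderOf_pos g).ne'
  refine ⟨k, hk, ⟨a, by rw [← pow_mul, mul_comm, ← e, pow_orderOf_eq_one]⟩, fun x hx => ?_⟩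
  obtain ⟨j, rfl⟩ := hk
  have h2 : Commute (g ^ 2) x := by
    have hx' : g * x * g⁻¹ = x⁻¹ := hx
    have h3 : g * x⁻¹ * g⁻¹ = x := by
      calc g * x⁻¹ * g⁻¹ = (g * x * g⁻¹)⁻¹ := by group
        _ = x := by rw [hx', inv_inv]
    calc g ^ 2 * x = g * (g * x * g⁻¹) * g⁻¹ * g ^ 2 := by rw [pow_two]; group
      _ = x * g ^ 2 := by rw [hx', h3]
  have h4 : Commute ((g ^ 2) ^ j) x⁻¹ := (h2.pow_left j).inv_right
  have hx' : g * x * g⁻¹ = x⁻¹ := hx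
  change _ * x * _ = _
  calc g ^ (2 * j + 1) * x * (g ^ (2 * j + 1))⁻¹
      = (g ^ 2) ^ j * (g * x * g⁻¹) * ((g ^ 2) ^ j)⁻¹ := by
        rw [pow_succ, pow_mul]; group
    _ = x⁻¹ := by rw [hx', h4.eq]; group

theorem ka3 [Finite G] (w : G) :
    ∃ i j : ℕ, P2 (w ^ i) ∧ Odd (orderOf (w ^ j)) ∧ w ^ i * w ^ j = w := by
  obtain ⟨a, k, hk, e⟩ := Nat.exists_eq_two_pow_mul_odd (orderOf_pos w).ne'
  have co : (2 ^ a).Coprime k := (Nat.coprime_two_left.2 hk).pow_left a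
  obtain ⟨i, hi1, hi2⟩ := Nat.chineseRemainder co 1 0
  obtain ⟨j, hj1, hj2⟩ := Nat.chineseRemainder co 0 1
  refine ⟨i, j, ⟨a, ?_⟩, ?_, ?_⟩
  · rw [← pow_mul, ← orderOf_dvd_iff_pow_eq_one, e, mul_comm]
    exact Nat.mul_dvd_mul_right ((Nat.modEq_zero_iff_dvd).1 hi2) _
  · refine Odd.of_dvd_nat hk (orderOf_dvd_of_pow_eq_one ?_)
    rw [← pow_mul, ← orderOf_dvd_iff_pow_eq_one, e]
    exact Nat.mul_dvd_mul_right ((Nat.modEq_zero_iff_dvd).1 hj1) _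
  · rw [← pow_add]
    conv_rhs => rw [← pow_one w]
    rw [pow_eq_pow_iff_modEq, e, ← Nat.modEq_and_modEq_iff_modEq_mul co]
    exact ⟨by simpa using hi1.add hj1, by simpa using hi2.add hj2⟩

theorem ka4 (Z : Subgroup G) (g : G) (h : P2 g) (hg : g ∉ Z) :
    ∃ k : ℕ, g ^ 2 ^ k ∉ Z ∧ (g ^ 2 ^ k) ^ 2 ∈ Z := by
  obtain ⟨n, hn⟩ := h
  by_contra hc
  push Not at hc
  have : ∀ k : ℕ, g ^ 2 ^ k ∉ Z := by
    intro k
    induction k with
    | zero => simpa using hg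
    | succ k ih => rw [pow_succ, pow_mul]; exact hc k ih
  exact this n (hn ▸ Z.one_mem)

theorem ka5 (R : Subgroup G) : IsPGroup 2 R ↔ ∀ g ∈ R, P2 g := isPGroup_iff_forall

theorem ka6 [Finite G] (P R : Subgroup G) (hP : IsPGroup 2 P) (h : R ≤ P) (hne : R ≠ P) :
    ∃ g ∈ P, g ∉ R ∧ g ^ 2 ∈ R ∧ g ∈ normalizer (R : Set G) := by
  have : Fact (Nat.Prime 2) := ⟨Nat.prime_two⟩
  obtain ⟨g, hg, hgR⟩ := SetLike.exists_of_lt (lt_inf_normalizer hP (lt_of_le_of_ne h hne))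
  obtain ⟨k, h1, h2⟩ := ka4 R g ((ka5 P).1 hP g hg.1) hgR
  exact ⟨_, P.pow_mem hg.1 _, h1, h2, (normalizer (R : Set G)).pow_mem hg.2 _⟩

theorem sylL_iff [Finite G] {K P : Subgroup G} : SylL K P ↔ IsSyl 2 P K := by
  have : Fact (Nat.Prime 2) := ⟨Nat.prime_two⟩
  constructor
  · rintro ⟨h1, h2, h3⟩
    exact isSyl_of_not_dvd_relIndex h1 h2 (Nat.two_dvd_ne_zero.2 (Nat.odd_iff.1 h3))
  · intro h
    exact ⟨h.le, h.isPGroup, Nat.odd_iff.2 (Nat.two_dvd_ne_zero.1 h.not_dvd_relIndex)⟩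

theorem ka1 [Finite G] (K : Subgroup G) : NRO K ↔ Cl K := by
  have : Fact (Nat.Prime 2) := ⟨Nat.prime_two⟩
  constructor
  · intro h
    obtain ⟨P⟩ : Nonempty (Sylow 2 K) := inferInstance
    have hn : (P : Subgroup K).Normal := by
      refine (Cfsg.Agent.S3861.result P).1 fun x x1 ho hc => x1 ?_
      obtain ⟨g, hg⟩ := isConj_iff.1 hc
      refine Subtype.ext (h x x.2 g g.2 (by rwa [orderOf_coe]) ?_)
      exact congrArg Subtype.val hg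
    have hs := isSyl_map_subtype P
    refine ⟨_, hs.le, hs.isPGroup, fun x hx ⟨k, hk⟩ => ?_⟩
    exact hs.le_of_le_normalizer' (isPGroup_zpowers hk) ((zpowers_le).2 hx)
      (((zpowers_le).2 hx).trans (le_normalizer_map_subtype _)) (mem_zpowers x)
  · rintro ⟨T, hT, hp, hall⟩ x hx g hg ho hi
    obtain ⟨k, -, h2, h3⟩ := ka2 g
    have hs := h3 x hi
    have hk : g ^ k ∈ K := K.pow_mem hg k
    generalize g ^ k = s at *
    have h4 : x * s * x⁻¹ * s⁻¹ ∈ T :=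
      T.mul_mem (hall _ (K.mul_mem (K.mul_mem hx hk) (K.inv_mem hx)) (h2.conj x))
        (T.inv_mem (hall _ hk h2))
    have hs' : s * x * s⁻¹ = x⁻¹ := hs
    have e : x * s * x⁻¹ * s⁻¹ = x ^ 2 := by
      calc x * s * x⁻¹ * s⁻¹ = x * (s * x * s⁻¹)⁻¹ := by group
        _ = x ^ 2 := by rw [hs', inv_inv, pow_two]
    rw [e] at h4
    obtain ⟨n, hn⟩ := (ka5 T).1 hp _ h4
    exact eq_one_of_P2 ⟨n + 1, by rw [pow_succ', pow_mul, hn]⟩ ho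

theorem jobKA : JobKA.{u} := by
  intro G _ _
  have : Fact (Nat.Prime 2) := ⟨Nat.prime_two⟩
  refine ⟨ka1, ka2, ka3, ka4, ka5, ka6, fun K R hR hK => ?_, fun K P hP => ?_, fun K R hR hK => ?_⟩
  · obtain ⟨T, hT, h⟩ := exists_isSyl_le hR hK
    exact ⟨T, h, sylL_iff.2 hT, hT.card_eq⟩
  · have hs := sylL_iff.1 hP
    refine ⟨hs.card_eq, fun N hN hNK =>
      sylL_iff.2 (hs.inf_of_le_normalizer hNK (hs.le.trans hN)), fun R hR hK => ?_⟩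
    obtain ⟨g, hg, h⟩ := hs.exists_cj_le hR hK
    exact ⟨g, hg, fun r hr => h (conj_mem_cj hr)⟩
  · obtain ⟨T, hT⟩ := exists_isSyl 2 K
    exact ⟨hT.card_eq ▸ hT.card_le hR hK, fun e => sylL_iff.2 (isSyl_of_card_eq hK e)⟩

end H66.RCKA
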